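import Mathlib

/-! No `2^{1+n}.A₅` with a fixed-point-free element of order `3` contains the quaternion configuration. -/

set_option autoImplicit false

namespace Cfsg.Agent.H10.Am

open Subgroup Equiv Equiv.Perm

universe u

set_option synthInstance.maxSize 1000 in
theorem t2z_std : ∀ b : Perm (Fin 5), b * b * b = 1 → b ≠ 1 → ∀ s : Perm (Fin 5), sign s = 1 → s * s = 1 →
    s * b * s⁻¹ = b⁻¹ → ∃ c : Perm (Fin 5), c * b * c⁻¹ = swap 0 1 * swap 1 2 ∧ c * s * c⁻¹ = swap 0 1 * swap 3 4 := by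
  decide +kernel

theorem t2z_m : ∀ u : Perm (Fin 5), sign u = 1 → u * u = 1 → u * (swap 0 1 * swap 3 4) * u⁻¹ = swap 0 1 * swap 3 4 →
    (u * (swap 0 1 * swap 1 2)) ^ 3 = 1 → u = 1 := by
  decide +kernel

theorem t2_z {C : Type u} [Group C] [Finite C] {b s m t : C} (tc : ∀ g, Commute g t) (tt : t*t=1) (t1 : t ≠ 1) (hb : orderOf b = 3) (cb : ∀ g, g*b*g⁻¹*b⁻¹ ∈ zpowers t → g ∈ zpowers b ⊔ zpowers t) (ss : s*s=1) (sb : s*b*s⁻¹=b⁻¹) (mm : m*m=t) (ms : m*s*m⁻¹=t*s) (mb : (m*b)^3=1) (N : Subgroup C) [N.Normal] (tN : t ∈ N) (hc : ∀ x ∈ N, ∀ y ∈ N, x*y*x⁻¹*y⁻¹ ∈ zpowers t) (h2 : ∀ x ∈ N, x*x ∈ zpowers t) (e : C ⧸ N ≃* alternatingGroup (Fin 5)) : False := by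
  have nN : N.Normal := inferInstance
  have Zc : ∀ τ ∈ zpowers t, ∀ g, Commute g τ := by rintro _ ⟨k, rfl⟩ g; exact (tc g).zpow_right k
  have Zq : ∀ τ ∈ zpowers t, τ * τ = 1 := by
    rintro _ ⟨k, rfl⟩; simp only; rw [← (Commute.refl t).mul_zpow, tt, one_zpow]
  have Z2 : ∀ τ ∈ zpowers t, τ = 1 ∨ τ = t := by
    rintro _ ⟨k, rfl⟩
    obtain ⟨j, rfl | rfl⟩ := Int.even_or_odd' k
    · left; simp only; rw [zpow_mul, zpow_two, tt, one_zpow]
    · right; simp only; rw [zpow_add, zpow_mul, zpow_two, tt, one_zpow, one_mul, zpow_one]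
  haveI nZ : (zpowers t).Normal := ⟨fun n hn g => by rw [(Zc n hn g).eq, mul_inv_cancel_right]; exact hn⟩
  have b3 : b * b * b = 1 := by have := pow_orderOf_eq_one b; rwa [hb, pow_three'] at this
  have bN : ∀ β ∈ zpowers b, β ∈ N → β = 1 := by
    intro β hβ hN
    have h3 : β * β * β = 1 := by
      obtain ⟨k, rfl⟩ := hβ
      simp only; rw [← (Commute.refl b).mul_zpow, ← ((Commute.refl b).mul_left (Commute.refl b)).mul_zpow, b3, one_zpow]
    have := Zq _ (h2 β hN)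
    rwa [← mul_assoc, h3, one_mul] at this
  have a0 : ∀ x ∈ N, x * ((b * x * b⁻¹) * (b * b * x * (b * b)⁻¹)) ∈ zpowers t := by
    intro x hx
    have y := mul_mem (nN.conj_mem x hx b) (nN.conj_mem x hx (b * b))
    have wN := mul_mem hx y
    have := cb (x * ((b * x * b⁻¹) * (b * b * x * (b * b)⁻¹))) (by
      have := hc x hx _ y
      convert this using 1
      calc _ = x * ((b * x * b⁻¹) * (b * b * x * (b * b)⁻¹)) * ((b * b * b) * x⁻¹ * (b * b * b)⁻¹) *
          ((b * x * b⁻¹) * (b * b * x * (b * b)⁻¹))⁻¹ := by group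
        _ = _ := by rw [b3]; group)
    rw [← SetLike.mem_coe, mul_normal] at this
    obtain ⟨β, hβ, τ, hτ, e⟩ := this
    simp only at e
    have : β = 1 := bN β hβ ((mul_mem_cancel_right (zpowers_le.2 tN hτ)).1 (e ▸ wN))
    rw [← e, this, one_mul]; exact hτ
  have a1 : ∀ c, ∀ x ∈ N, x * ((c * b * c⁻¹ * x * (c * b * c⁻¹)⁻¹) *
      (c * b * c⁻¹ * (c * b * c⁻¹) * x * (c * b * c⁻¹ * (c * b * c⁻¹))⁻¹)) ∈ zpowers t := by
    intro c x hx
    have := nZ.conj_mem _ (a0 _ (nN.conj_mem x hx c⁻¹)) c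
    convert this using 1
    group
  let ψ : C →* Perm (Fin 5) := (alternatingGroup (Fin 5)).subtype.comp (e.toMonoidHom.comp (QuotientGroup.mk' N))
  have kψ : ∀ g, ψ g = 1 ↔ g ∈ N := fun g => by simp [ψ]
  have sψ : ∀ g, sign (ψ g) = 1 := fun g => (e (QuotientGroup.mk' N g)).2
  obtain ⟨c, cb0, cs0⟩ := t2z_std (ψ b) (by rw [← map_mul, ← map_mul, b3, map_one])
    (fun h => by rw [bN b (mem_zpowers b) ((kψ b).1 h), orderOf_one] at hb; omega) (ψ s) (sψ s)
    (by rw [← map_mul, ss, map_one]) (by rw [← map_inv, ← map_mul, ← map_mul, sb, map_inv])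
  let φ : C →* Perm (Fin 5) := (MulAut.conj c).toMonoidHom.comp ψ
  have eφ : ∀ g, φ g = c * ψ g * c⁻¹ := fun g => rfl
  have kφ : ∀ g, φ g = 1 ↔ g ∈ N := fun g => by rw [eφ, conj_eq_one_iff, kψ]
  have sφ : ∀ g, sign (φ g) = 1 := fun g => by rw [eφ]; simp [sψ]
  have oφ : ∀ p, sign p = 1 → ∃ g, φ g = p := fun p hp => by
    obtain ⟨g, hg⟩ := QuotientGroup.mk'_surjective N (e.symm ⟨c⁻¹ * p * c, by
      rw [mem_alternatingGroup]; simp [hp]⟩)
    refine ⟨g, ?_⟩
    have : ψ g = c⁻¹ * p * c := by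
      change ((e (QuotientGroup.mk' N g) : alternatingGroup (Fin 5)) : Perm (Fin 5)) = _
      rw [hg, MulEquiv.apply_symm_apply]
    rw [eφ, this]; group
  rw [← eφ] at cb0 cs0
  have mN : m ∈ N := (kφ m).1 (t2z_m _ (sφ m) (by rw [← map_mul, mm, (kφ t).2 tN])
    (by rw [← cs0, ← map_inv, ← map_mul, ← map_mul, ms, map_mul, (kφ t).2 tN, one_mul])
    (by rw [← cb0, ← map_mul, ← map_pow, mb, map_one]))
  have K : ∀ y τ, τ ∈ zpowers t → Commute m (y * τ) → Commute m y := fun y τ hτ h => by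
    have := h.mul_right (Zc τ hτ m).inv_right
    rwa [mul_inv_cancel_right] at this
  have sq : ∀ g, g * m * g⁻¹ * (g * m * g⁻¹) = t := fun g => by
    rw [conj_mul, mm, (tc g).eq, mul_inv_cancel_right]
  have N1 : ∀ c, ¬ Commute m (c * b * c⁻¹ * m * (c * b * c⁻¹)⁻¹) := fun c h => by
    have h1 := a1 c m mN
    have s1 := sq (c * b * c⁻¹)
    have s2 := sq (c * b * c⁻¹ * (c * b * c⁻¹))
    generalize c * b * c⁻¹ * m * (c * b * c⁻¹)⁻¹ = y at h h1 s1
    generalize c * b * c⁻¹ * (c * b * c⁻¹) * m * (c * b * c⁻¹ * (c * b * c⁻¹))⁻¹ = w at h1 s2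
    have q := Zq _ h1
    have cw := (Zc _ h1 w).eq
    have e1 : w * (m * y) = m * y * w := by
      have : w * (m * y) * w = m * y * w * w := by simpa only [mul_assoc] using cw
      exact mul_right_cancel this
    apply t1
    calc t = (m * m) * (y * y) * (w * w) := by rw [mm, s1, s2, tt, one_mul]
      _ = m * (y * m) * y * w * w := by rw [← h.eq]; group
      _ = m * y * (m * y * w) * w := by group
      _ = m * y * (w * (m * y)) * w := by rw [e1]
      _ = 1 := by rw [← q]; group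
  have N2 : ∀ g g', φ g = φ g' → ¬ Commute m (g * m * g⁻¹) → ¬ Commute m (g' * m * g'⁻¹) := fun g g' h n k => by
    have hn : g⁻¹ * g' ∈ N := (kφ _).1 (by rw [map_mul, map_inv, h, inv_mul_cancel])
    have z := nZ.conj_mem _ (hc _ (inv_mem mN) _ hn) g
    refine n (K _ _ z ?_)
    convert k using 1
    group
  have N3 : ∀ g, ¬ Commute m (g * m * g⁻¹) → ¬ Commute m (g * s * m * (g * s)⁻¹) := fun g n k => by
    refine n (K _ _ (mem_zpowers t) ?_)
    convert k using 1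
    have e1 : s * m * s⁻¹ = m * t := by
      calc _ = (t * t) * s * m * s⁻¹ := by rw [tt, one_mul]
        _ = t * (t * s) * m * s⁻¹ := by group
        _ = t * m * (s * s⁻¹) := by rw [← ms]; group
        _ = m * t := by rw [mul_inv_cancel, mul_one, (tc m).eq]
    calc _ = g * m * (g⁻¹ * t) := by group
      _ = g * (m * t) * g⁻¹ := by rw [(tc g⁻¹).eq]; group
      _ = _ := by rw [← e1]; group
  have cmt : ∀ x ∈ N, ¬ Commute m x → m * x = t * x * m := fun x hx n => by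
    rcases Z2 _ (hc m mN x hx) with h | h
    · exact absurd (mul_inv_eq_iff_eq_mul.1 (mul_inv_eq_one.1 h)) n
    · rw [← h]; group
  obtain ⟨c0, h0⟩ := oφ (swap 1 2 * swap 2 3) (by decide)
  obtain ⟨c1, h1⟩ := oφ (swap 0 1 * swap 0 2 * swap 1 3 * swap 2 4) (by decide)
  obtain ⟨c3, h3⟩ := oφ (swap 2 3 * swap 3 4) (by decide)
  have A := a1 c0 _ (nN.conj_mem m mN (c1 * b * c1⁻¹ * s))
  have n1 := N3 _ (N1 c1)
  have n2 := N2 _ (c0 * b * c0⁻¹ * (c1 * b * c1⁻¹ * s)) (by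
    simp only [map_mul, map_inv, map_one, h0, h1, cb0, cs0]; decide) (N1 1)
  have n3 := N2 _ (c0 * b * c0⁻¹ * (c0 * b * c0⁻¹) * (c1 * b * c1⁻¹ * s)) (by
    simp only [map_mul, map_inv, h0, h1, h3, cb0, cs0]; decide) (N1 c3)
  generalize c1 * b * c1⁻¹ * s = g at A n1 n2 n3
  generalize c0 * b * c0⁻¹ = d at A n2 n3
  have r2 := cmt _ (nN.conj_mem m mN _) n2
  have r3 := cmt _ (nN.conj_mem m mN _) n3
  have e2 : d * (g * m * g⁻¹) * d⁻¹ = d * g * m * (d * g)⁻¹ := by group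
  have e3 : d * d * (g * m * g⁻¹) * (d * d)⁻¹ = d * d * g * m * (d * d * g)⁻¹ := by group
  rw [e2, e3] at A
  generalize d * g * m * (d * g)⁻¹ = y at A r2
  generalize d * d * g * m * (d * d * g)⁻¹ = w at A r3
  have cyw : Commute m (y * w) := by
    calc m * (y * w) = (m * y) * w := by group
      _ = t * y * (m * w) := by rw [r2]; group
      _ = t * (y * t) * w * m := by rw [r3]; group
      _ = y * w * m := by rw [(tc y).eq, ← mul_assoc, tt, one_mul]
  have := (Zc _ A m).mul_right cyw.inv_right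
  rw [mul_inv_cancel_right] at this
  exact n1 this

end Cfsg.Agent.H10.Am
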