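import Cfsg.Agent.H7.Bf0
import Cfsg.Agent.S0217
import Cfsg.Agent.S1279
import Cfsg.Agent.FT.BG01

/-! Completeness of the odd cores of involution centralizers on pure subgroups of order eight. -/

set_option autoImplicit false
set_option linter.unusedVariables false

namespace Cfsg.Agent.H7.Bf
open Subgroup
universe u
variable {G : Type u} [Group G] [Finite G]

theorem b8a_sol {t a : G} (hs : Group.IsSolvable (centralizer ({t} : Set G))) (h : IsConj a t) :
    Group.IsSolvable (centralizer ({a} : Set G)) := by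
  obtain ⟨g, rfl⟩ := isConj_iff.1 h
  let f : centralizer ({a} : Set G) →* centralizer ({g * a * g⁻¹} : Set G) :=
    ((MulAut.conj g).toMonoidHom.comp (centralizer ({a} : Set G)).subtype).codRestrict _ fun x => by
      rw [mem_centralizer_singleton_iff]
      have := mem_centralizer_singleton_iff.1 x.2
      change g * x * g⁻¹ * (g * a * g⁻¹) = g * a * g⁻¹ * (g * x * g⁻¹)
      calc _ = g * (x * a) * g⁻¹ := by group
        _ = _ := by rw [this]; group
  exact Group.isSolvable_of_isSolvable_injective (f := f) fun x y e =>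
    Subtype.ext ((MulAut.conj g).injective (congrArg Subtype.val e))

theorem b8a {t : G} (hs : Group.IsSolvable (centralizer ({t} : Set G))) : HW t := by
  intro A V sq c8 VA c4 hc
  haveI := Fact.mk Nat.prime_two
  have cm : ∀ a ∈ A, ∀ b ∈ A, a * b = b * a := fun a ha b hb => by
    have e1 : a⁻¹ = a := inv_eq_of_mul_eq_one_right (sq a ha)
    have e2 : b⁻¹ = b := inv_eq_of_mul_eq_one_right (sq b hb)
    rw [← inv_eq_of_mul_eq_one_right (sq _ (mul_mem ha hb)), mul_inv_rev, e1, e2]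
  have ex : ∀ a ∈ A, a ^ 2 = 1 := fun a ha => by rw [pow_two, sq a ha]
  obtain ⟨⟨h1, h2, h3, h4⟩, h5⟩ := S1279.result 2 A ⟨⟨⟨fun a b => Subtype.ext (cm _ a.2 _ b.2)⟩⟩, ex⟩
    (by rw [c8]; norm_num) fun a ha a1 => b8a_sol hs (hc a ha a1)
  obtain ⟨k1, k2⟩ := S0217.result (p := 2) A cm ex (by rw [c8]; norm_num) _ h1 h2 h3 h5 h4
  have k1' : ¬ 2 ∣ Nat.card (signalizerClosure A (centralizerPPrimeCore 2)) := k1
  refine ⟨Nat.not_even_iff_odd.1 fun e => k1' (even_iff_two_dvd.1 e), le_antisymm ?_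
    (iSup_le fun a => le_iSup_of_le (⟨a.1, VA a.2.1, a.2.2⟩ : {a : G // a ∈ A ∧ a ≠ 1}) le_rfl)⟩
  refine FT.coprime_abelian_gen_cent1 (A := V) ⟨⟨fun a b => Subtype.ext (cm _ (VA a.2) _ (VA b.2))⟩⟩
    (fun hcy => ?_) (fun b hb => mem_normalizer_fintype fun x hx => ?_) ?_ fun a ha a1 => ?_
  · obtain ⟨g, hg⟩ := hcy.exists_generator
    have := orderOf_dvd_of_pow_eq_one (show g ^ 2 = 1 from Subtype.ext (ex _ (VA g.2)))
    rw [orderOf_eq_card_of_forall_mem_zpowers hg, c4] at this
    omega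
  · have : signalizerClosure A (centralizerPPrimeCore 2) ≤
        (signalizerClosure A (centralizerPPrimeCore 2)).comap (MulAut.conj b).toMonoidHom :=
      iSup_le fun a y hy => (le_iSup (fun a : {a : G // a ∈ A ∧ a ≠ 1} => centralizerPPrimeCore 2 (a : G)) a)
        (h3 _ a.2.1 a.2.2 b (VA hb) y hy)
    exact this hx
  · rw [FT.Cop, c4]
    exact ((Nat.prime_two.coprime_iff_not_dvd.2 k1').symm.pow_right 2)
  · exact (k2 a (VA ha) a1).le.trans (le_iSup_of_le (⟨a, ha, a1⟩ : {a : G // a ∈ V ∧ a ≠ 1}) le_rfl)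

end Cfsg.Agent.H7.Bf
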