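import Cfsg.Agent.S5737
import Cfsg.Agent.H18.U34
import Cfsg.Agent.H11.AutU

/-! Binary actions of `SU₃(q)`, `q` even. -/

set_option autoImplicit false
set_option linter.unusedSectionVars false
namespace Cfsg.Agent.H13.BU
open MulAction Subgroup Cfsg.Agent.S5737 Matrix
open scoped MatrixGroups

section
variable {G Ω : Type*} [Group G] [MulAction G Ω]

theorem frob (B : Bin G Ω) {x y : Ω} {k m : G} (h0 : k • x = x) (h1 : k • y = y)
    (h2 : (m * (k * m * k⁻¹)⁻¹ * m⁻¹ * (k * m * k⁻¹)) • y = y) : ∃ g : G, g • x = x ∧ g • y = y ∧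
      g • (m * (k * m * k⁻¹)) • y = (m * (k * m * k⁻¹)) • y ∧ g • (k * m * k⁻¹) • y = m • y := by
  have h3 : k⁻¹ • y = y := inv_smul_eq_iff.2 h1.symm
  have h4 : k • (m * (k * m * k⁻¹) * k * (m * (k * m * k⁻¹))⁻¹) • (k * m * k⁻¹) • y = (k * m * k⁻¹) • y := by
    rw [smul_smul, smul_smul, show k * (m * (k * m * k⁻¹) * k * (m * (k * m * k⁻¹))⁻¹) * (k * m * k⁻¹) =
      k * m * k⁻¹ * k * k * (m * (k * m * k⁻¹)⁻¹ * m⁻¹ * (k * m * k⁻¹)) by group, mul_smul, h2, mul_smul, h1, mul_smul, h1]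
  obtain ⟨g, a, b, c, d⟩ := B.tri h0 h1 (x2 := (m * (k * m * k⁻¹)) • y) (by
    rw [mul_smul, inv_smul_smul, mul_smul, h1]) h4
  refine ⟨g, a, b, c, d.trans ?_⟩
  rw [← inv_smul_eq_iff.2 h4.symm, smul_smul, mul_assoc, inv_mul_cancel_left, mul_smul, h3]

theorem cube (B : Bin G Ω) {x y : Ω} {h r : G} (h0 : h • x = x) (h1 : h • y = y) (h2 : r * r * r = 1)
    (h3 : h * r * (h * r) * (h * r) = 1) : ∃ g : G, g • x = x ∧ g • y = y ∧ g • r • x = r • x ∧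
      (h * g) • r⁻¹ • x = r⁻¹ • x := by
  have h4 : h • (r * h * r⁻¹) • r⁻¹ • x = r⁻¹ • x := by
    rw [smul_smul, smul_smul, show h * (r * h * r⁻¹) * r⁻¹ = h * r * (h * r) * (h * r) * r⁻¹ * h⁻¹ * (r * r * r)⁻¹ by group,
      h2, h3, inv_one, mul_one, one_mul, mul_smul, inv_smul_eq_iff.2 h0.symm]
  obtain ⟨g, a, b, c, d⟩ := B.tri h0 h1 (x2 := r • x) (by rw [mul_smul, inv_smul_smul, mul_smul, h0]) h4
  exact ⟨g, a, b, c, by rw [mul_smul, d, h4]⟩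

end

variable {F : Type*} [Field F] [CharP F 2]

/-- the form -/
def J (σ : F →+* F) (u v : Fin 3 → F) : F := u 0 * σ (v 2) + u 1 * σ (v 1) + u 2 * σ (v 0)

/-- the group -/
def Γ (σ : F →+* F) : Subgroup SL(3, F) := preserving (slToMat 3 F) (J σ)

variable {σ : F →+* F} (hσ : ∀ x, σ (σ x) = x)

theorem Γ.form (g : Γ σ) (u v) : J σ (g • u) (g • v) = J σ u v := g.2 u v

theorem smul_eq (g : Γ σ) (v : Fin 3 → F) : g • v = g.1.1 *ᵥ v := rfl

theorem ext' {g h : Γ σ} (e : g.1.1 = h.1.1) : g = h := Subtype.ext (Subtype.ext e)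

theorem coe_mul' (g h : Γ σ) : (g * h).1.1 = g.1.1 * h.1.1 := rfl

theorem coe_one' : (1 : Γ σ).1.1 = 1 := rfl

/-- unipotent elements -/
def u (a b : F) (h : b + σ b = a * σ a) : Γ σ := ⟨H18.uMat σ a b, fun x y => by
  change J σ (!![_, _, _; _, _, _; _, _, _] *ᵥ x) (!![_, _, _; _, _, _; _, _, _] *ᵥ y) = _
  simp [J, mulVec, dotProduct, Fin.sum_univ_three, hσ]
  grind (ematch := 0)⟩

theorem u_coe (a b : F) (h) : (u hσ a b h).1.1 = !![1, a, b; 0, 1, σ a; 0, 0, 1] := rfl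

/-- diagonal elements -/
def d (l : F) (h : l ≠ 0) : Γ σ := ⟨⟨!![l, 0, 0; 0, σ l / l, 0; 0, 0, (σ l)⁻¹], by
    have := (map_ne_zero σ).2 h
    simp [det_fin_three]; field_simp⟩, fun x y => by
  have := (map_ne_zero σ).2 h
  change J σ (!![_, _, _; _, _, _; _, _, _] *ᵥ x) (!![_, _, _; _, _, _; _, _, _] *ᵥ y) = _
  simp [J, mulVec, dotProduct, Fin.sum_univ_three, hσ]
  field_simp⟩

theorem d_coe (l : F) (h) : (d hσ l h).1.1 = !![l, 0, 0; 0, σ l / l, 0; 0, 0, (σ l)⁻¹] := rfl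

/-- the Weyl element -/
def t (σ : F →+* F) : Γ σ := ⟨⟨!![0, 0, 1; 0, 1, 0; 1, 0, 0], by simp [det_fin_three, CharTwo.neg_eq]⟩, fun x y => by
  change J σ (!![_, _, _; _, _, _; _, _, _] *ᵥ x) (!![_, _, _; _, _, _; _, _, _] *ᵥ y) = _
  simp [J, mulVec, dotProduct, Fin.sum_univ_three]
  ring⟩

theorem t_coe : (t σ).1.1 = !![0, 0, 1; 0, 1, 0; 1, 0, 0] := rfl

/-- transvections -/
def T (v : Fin 3 → F) (hv : J σ v v = 0) (c : F) (hc : σ c = c) : Γ σ :=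
  ⟨⟨!![1 + c * v 0 * σ (v 2), c * v 0 * σ (v 1), c * v 0 * σ (v 0); c * v 1 * σ (v 2), 1 + c * v 1 * σ (v 1),
    c * v 1 * σ (v 0); c * v 2 * σ (v 2), c * v 2 * σ (v 1), 1 + c * v 2 * σ (v 0)], by
    simp [det_fin_three, J] at hv ⊢
    linear_combination c * hv⟩, fun x y => by
  change J σ (!![_, _, _; _, _, _; _, _, _] *ᵥ x) (!![_, _, _; _, _, _; _, _, _] *ᵥ y) = _
  simp [J, mulVec, dotProduct, Fin.sum_univ_three, hσ, hc] at hv ⊢
  grind (ematch := 0)⟩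

theorem T_smul {v : Fin 3 → F} (hv c hc) (x : Fin 3 → F) : T hσ v hv c hc • x = x + (c * J σ x v) • v := by
  ext i
  fin_cases i <;> simp [smul_eq, T, J, mulVec, dotProduct, Fin.sum_univ_three] <;> ring

theorem ext_smul {g h : Γ σ} (e : ∀ x : Fin 3 → F, g • x = h • x) : g = h :=
  ext' (Matrix.ext_of_mulVec_single fun i => e _)

theorem T_conj (g : Γ σ) {v : Fin 3 → F} (hv c hc) :
    g * T hσ v hv c hc * g⁻¹ = T hσ (g • v) ((Γ.form g v v).trans hv) c hc := ext_smul fun x => by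
  rw [mul_smul, mul_smul, T_smul, T_smul, smul_add, smul_inv_smul, smul_comm, ← Γ.form g, smul_inv_smul]

theorem rel (g : Γ σ) (i j : Fin 3) : g.1.1 0 i * σ (g.1.1 2 j) + g.1.1 1 i * σ (g.1.1 1 j) + g.1.1 2 i * σ (g.1.1 0 j) =
    !![0, 0, 1; 0, 1, 0; 1, 0, 0] i j := by
  have := Γ.form g (Pi.single i 1) (Pi.single j 1)
  simp only [smul_eq, mulVec_single_one] at this
  refine this.trans ?_
  fin_cases i <;> fin_cases j <;> simp [J]

theorem det' (g : Γ σ) : g.1.1 0 0 * g.1.1 1 1 * g.1.1 2 2 - g.1.1 0 0 * g.1.1 1 2 * g.1.1 2 1 -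
    g.1.1 0 1 * g.1.1 1 0 * g.1.1 2 2 + g.1.1 0 1 * g.1.1 1 2 * g.1.1 2 0 + g.1.1 0 2 * g.1.1 1 0 * g.1.1 2 1 -
    g.1.1 0 2 * g.1.1 1 1 * g.1.1 2 0 = 1 := (det_fin_three _).symm.trans g.1.2

theorem vec_eq {g : Γ σ} {x y z x' y' z' : F} : g • ![x, y, z] = ![x', y', z'] ↔
    g.1.1 0 0 * x + g.1.1 0 1 * y + g.1.1 0 2 * z = x' ∧ g.1.1 1 0 * x + g.1.1 1 1 * y + g.1.1 1 2 * z = y' ∧
      g.1.1 2 0 * x + g.1.1 2 1 * y + g.1.1 2 2 * z = z' := by
  simp [smul_eq, funext_iff, Fin.forall_fin_succ, mulVec, dotProduct, Fin.sum_univ_three]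

include hσ in
theorem decomp {g : Γ σ} {l : F} (h : g • ![(1 : F), 0, 0] = l • ![1, 0, 0]) :
    ∃ a b hab hl, g = u hσ a b hab * d hσ l hl := by
  simp [vec_eq] at h
  obtain ⟨h0, h1, h2⟩ := h
  have r1 := rel g 1 0
  have r2 := rel g 2 0
  have r3 := rel g 1 1
  have r4 := rel g 2 1
  have r5 := rel g 2 2
  have r6 := det' g
  simp [h0, h1, h2] at r1 r2 r3 r4 r5 r6
  have hl : l ≠ 0 := by rintro rfl; simp at r2
  have hl' := (map_ne_zero σ).2 hl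
  have h3 := r1.resolve_right hl
  simp [h3] at r3 r4 r6
  have h4 : g.1.1 2 2 = (σ l)⁻¹ := eq_inv_of_mul_eq_one_left r2
  have h5 : g.1.1 1 1 = σ l / l := by field_simp; grind (ematch := 0)
  have h6 : g.1.1 1 2 = σ (g.1.1 0 1) / l := by
    rw [h4, h5] at r4
    simp [hσ] at r4
    field_simp at r4 ⊢
    grind (ematch := 0)
  refine ⟨g.1.1 0 1 * l / σ l, g.1.1 0 2 * σ l, ?_, hl, ext' ?_⟩
  · rw [h4, h6] at r5
    simp [hσ] at r5 ⊢
    field_simp at r5 ⊢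
    grind (ematch := 0)
  · rw [coe_mul', u_coe, d_coe, eta_fin_three g.1.1, h0, h1, h2, h3, h4, h5, h6]
    simp [hσ]
    field_simp
    simp

theorem u_smul (a b h) (x y z : F) : u hσ a b h • ![x, y, z] = ![x + a * y + b * z, y + σ a * z, z] := by
  simp [vec_eq, u_coe]

theorem d_smul (l h) (x y z : F) : d hσ l h • ![x, y, z] = ![l * x, σ l / l * y, (σ l)⁻¹ * z] := by
  simp [vec_eq, d_coe]

theorem t_smul (x y z : F) : t σ • ![x, y, z] = ![z, y, x] := by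
  simp [vec_eq, t_coe]

theorem d_pow (l : F) (h) (n : ℕ) : d hσ l h ^ n = d hσ (l ^ n) (pow_ne_zero _ h) := by
  induction n with
  | zero => exact ext' (by simp [d_coe, one_fin_three])
  | succ n ih =>
    rw [pow_succ, ih]
    exact ext' (by simp [coe_mul', d_coe, pow_succ, mul_comm]; field_simp)

theorem d_scal {l : F} (h0) (h : l * l = σ l) (v : Fin 3 → F) : d hσ l h0 • v = l • v := by
  have h1 := congrArg σ h
  rw [map_mul, hσ, ← h] at h1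
  rw [show v = ![v 0, v 1, v 2] from funext fun i => by fin_cases i <;> rfl, d_smul, ← h]
  simp [h0]
  grind (ematch := 0)

theorem cube_mat {a b l : F} (hab h0) (h : b * l = σ l * σ l) :
    u hσ a b hab * d hσ l h0 * t σ * (u hσ a b hab * d hσ l h0 * t σ) * (u hσ a b hab * d hσ l h0 * t σ) = 1 := by
  have h1 := (map_ne_zero σ).2 h0
  have h2 := congrArg σ h
  simp only [map_mul, hσ] at h2
  have h3 : (u hσ a b hab * d hσ l h0 * t σ).1.1 = !![σ l / l, a * (σ l / l), l; (σ l)⁻¹ * σ a, σ l / l, 0; (σ l)⁻¹, 0, 0] := by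
    simp [coe_mul', u_coe, d_coe, t_coe, mul_comm]
    field_simp
    rw [h, sq]
  have h4 : l * (σ l / l) * (σ l)⁻¹ = 1 := by field_simp
  have h5 : σ l / l * (σ l / l) + a * σ a * (σ l / l) * (σ l)⁻¹ + l * (σ l)⁻¹ = 0 := by
    field_simp
    grind (ematch := 0)
  refine ext' ?_
  rw [coe_mul', coe_mul' _ (_ * _), h3]
  generalize σ l / l = m, (σ l)⁻¹ = n, σ a = y at h4 h5
  clear * - h4 h5
  simp [one_fin_three]
  grind (ematch := 0)

theorem iso0 : J σ ![1, 0, 0] ![1, 0, 0] = 0 := by simp [J]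

theorem T0 (c hc) : T hσ ![1, 0, 0] iso0 c hc = u hσ 0 c (by simp [hc, CharTwo.add_self_eq_zero]) :=
  ext' (by simp [T, u_coe])

variable {Ω : Type*} [MulAction (Γ σ) Ω] {ω : Ω}

theorem pt {v : Fin 3 → F} (hB : ∀ g : Γ σ, g • ω = ω → ∃ α : F, g • v = α • v) {g k l : Γ σ} (h : g • k • ω = l • ω) :
    ∃ α : F, g • k • v = α • l • v := by
  obtain ⟨α, e⟩ := hB (l⁻¹ * g * k) (by rw [mul_smul, mul_smul, h, inv_smul_smul])
  rw [mul_smul, mul_smul, inv_smul_eq_iff, smul_comm l α] at e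
  exact ⟨α, e⟩

/-- the centres of the transvection groups fixing a point -/
def U (ω : Ω) (v : Fin 3 → F) : Prop := ∃ hv : J σ v v = 0, ∀ c hc, T hσ v hv c hc • ω = ω

theorem U.smul {v} (h : U hσ ω v) (g : Γ σ) : U hσ (g • ω) (g • v) :=
  ⟨(Γ.form g v v).trans h.1, fun c hc => by rw [← T_conj hσ g h.1, mul_smul, inv_smul_smul, mul_smul, h.2]⟩

theorem U.scale {v} (h : U hσ ω v) (a : F) : U hσ ω (a • v) := by
  have e : ∀ x y, J σ x (a • y) = σ a * J σ x y := fun x y => by simp [J]; ring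
  have e' : ∀ x y, J σ (a • x) y = a * J σ x y := fun x y => by simp [J]; ring
  refine ⟨by rw [e, e', h.1, mul_zero, mul_zero], fun c hc => ?_⟩
  convert h.2 (c * (a * σ a)) (by simp [hc, hσ, mul_comm]) using 2
  exact ext_smul fun x => by rw [T_smul, T_smul, e, smul_smul]; congr 2; ring

theorem U.z (h : U hσ ω ![1, 0, 0]) (c hc) : u hσ 0 c hc • ω = ω :=
  T0 hσ c (by simp at hc; grind (ematch := 0)) ▸ h.2 c _

/-- the stabiliser fixes an isotropic point -/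
structure C1 (ω : Ω) : Prop where
  z : U hσ ω ![1, 0, 0]
  b : ∀ g : Γ σ, g • ω = ω → ∃ α : F, g • ![(1 : F), 0, 0] = α • ![1, 0, 0]

theorem C1.smul (h : C1 hσ ω) {k : Γ σ} (hk : k • ![(1 : F), 0, 0] = ![1, 0, 0]) : C1 hσ (k • ω) :=
  ⟨hk ▸ h.z.smul hσ k, fun g hg => hk ▸ pt h.b hg⟩

variable {hσ} (B : Bin (Γ σ) Ω) (h : C1 hσ ω)
include B h

theorem A0 {μ : F} (hμ : σ μ = μ) (h0 : μ ≠ 0) (e : d hσ μ h0 • ω = ω) : μ = 1 := by
  have h1 : ∀ c, σ c = c → c + σ c = 0 * σ 0 := fun c hc => by simp [hc, CharTwo.add_self_eq_zero]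
  have h2 : d hσ μ h0 * u hσ 0 1 (h1 1 (map_one σ)) * (d hσ μ h0)⁻¹ = u hσ 0 (μ * μ) (h1 _ (by simp [hμ])) :=
    mul_inv_eq_iff_eq_mul.2 (ext' (by simp [coe_mul', d_coe, u_coe, hμ, h0]))
  have h3 : d hσ μ h0 * t σ * d hσ μ h0 = t σ := ext' (by simp [coe_mul', d_coe, t_coe, hμ, h0])
  obtain ⟨g, a, b, c, d⟩ := frob B e (y := t σ • ω) (m := u hσ 0 1 (h1 1 (map_one σ))) (by
    rw [← e, smul_smul, smul_smul, h3, e]) (by
    rw [h2, show ∀ a b : Γ σ, a * b⁻¹ * a⁻¹ * b = a * (a * b)⁻¹ * b from fun a b => by group,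
      show u hσ 0 1 _ * u hσ 0 (μ * μ) _ = u hσ 0 (μ * μ) (h1 _ (by simp [hμ])) * u hσ 0 1 (h1 1 (map_one σ)) from
        ext' (by simp [coe_mul', u_coe, add_comm])]
    simp)
  rw [h2, smul_smul _ (t σ)] at c d
  rw [smul_smul _ (t σ)] at d
  obtain ⟨α, a⟩ := h.b g a
  obtain ⟨β, b⟩ := pt h.b b
  obtain ⟨γ, c⟩ := pt h.b c
  obtain ⟨δ, d⟩ := pt h.b d
  have := det' g
  simp [mul_smul, t_smul, u_smul, vec_eq] at a b c d
  grind (ematch := 0)

theorem B1 {ζ : F} (hζ : ζ + σ ζ = 1) {l : F} (hl : l * σ l = 1) (h0 : l ≠ 0) (e : d hσ l h0 • ω = ω)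
    (hs : ∀ (g : Γ σ) (l : F), (∀ v : Fin 3 → F, g • v = l • v) → ∀ ω : Ω, g • ω = ω) : l * l = σ l := by
  have h1 : σ ζ = ζ + 1 := by grind (ematch := 0)
  let r : Γ σ := ⟨⟨!![ζ + 1, 1, 1; ζ, 0, 1; ζ * ζ + 1, ζ, ζ + 1], by simp [det_fin_three]; grind (ematch := 0)⟩, fun x y => by
    change J σ (!![_, _, _; _, _, _; _, _, _] *ᵥ x) (!![_, _, _; _, _, _; _, _, _] *ᵥ y) = _
    simp [J, mulVec, dotProduct, Fin.sum_univ_three, h1]
    grind (ematch := 0)⟩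
  have hr : r.1.1 = !![ζ + 1, 1, 1; ζ, 0, 1; ζ * ζ + 1, ζ, ζ + 1] := rfl
  have h2 : σ l = l⁻¹ := eq_inv_of_mul_eq_one_right hl
  have h3 : r * r * r = 1 := ext' (by simp [coe_mul', hr, one_fin_three]; grind (ematch := 0))
  obtain ⟨g, a, b, c, d⟩ := cube B e (y := t σ • ω) (by
    rw [smul_smul, show d hσ l h0 * t σ = t σ * d hσ l h0 from ext' (by simp [coe_mul', d_coe, t_coe, h2]), mul_smul, e])
    h3 (ext' (by simp [coe_mul', hr, d_coe, one_fin_three, h2]; grind (ematch := 0)))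
  obtain ⟨α, a⟩ := h.b g a
  obtain ⟨β, b⟩ := pt h.b b
  obtain ⟨γ, c⟩ := pt h.b c
  have h4 : r • ![(1 : F), 0, 0] = ![ζ + 1, ζ, ζ * ζ + 1] := by simp [vec_eq, hr]
  have h5 : r⁻¹ • ![(1 : F), 0, 0] = ![ζ, ζ + 1, ζ * ζ] := by
    rw [inv_smul_eq_iff, eq_comm]
    simp [vec_eq, hr]
    grind (ematch := 0)
  have h6 : ζ ≠ 0 := by rintro rfl; simp at hζ
  have h7 : ζ + 1 ≠ 0 := h1 ▸ (map_ne_zero σ).2 h6
  obtain ⟨x, y, hxy, hα, rfl⟩ := decomp hσ a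
  simp [h4, mul_smul, t_smul, u_smul, d_smul, hα] at b c
  obtain ⟨rfl, rfl, -⟩ := b
  rw [show u hσ 0 0 hxy = 1 from ext' (by simp [u_coe, one_fin_three]), one_mul, mul_smul,
    hs _ α (d_scal hσ hα (by grind (ematch := 0)))] at d
  obtain ⟨δ, d⟩ := pt h.b d
  simp [h5, d_smul, h2] at d
  grind (ematch := 0)

variable {q : ℕ} (hq : ∀ x, σ x = x ^ q) {ζ : F} (hζ : ζ + σ ζ = 1)
  (hs : ∀ (g : Γ σ) (l : F), (∀ v : Fin 3 → F, g • v = l • v) → ∀ ω : Ω, g • ω = ω)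
include hq hζ hs

theorem sc {g : Γ σ} (hg : g • ω = ω) {l : F} (hl : g • ![(1 : F), 0, 0] = l • ![1, 0, 0]) : l * l = σ l := by
  by_contra hn
  obtain ⟨a, b, hab, h0, rfl⟩ := decomp hσ hl
  have h0' := (map_ne_zero σ).2 h0
  have h1 : σ l + l * l ≠ 0 := fun e => hn (by grind (ematch := 0))
  obtain ⟨x, hx⟩ : ∃ x, x * (σ l + l * l) = a * σ l := ⟨_, div_mul_cancel₀ _ h1⟩
  have hx' := congrArg σ hx
  simp only [map_mul, map_add, hσ] at hx'
  have h2 : ζ * (x * σ x) + σ (ζ * (x * σ x)) = x * σ x := by simp [hσ]; grind (ematch := 0)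
  obtain ⟨c, hc⟩ : ∃ c, c = (b + l * σ l * (ζ * (x * σ x)) + a * (σ l * σ l / l * σ x)) + ζ * (x * σ x) := ⟨_, rfl⟩
  have h3 : c + σ c = 0 * σ 0 := by
    simp [hc, hσ]
    field_simp
    clear * - hx hx' hab hζ h1
    grind (ematch := 0)
  have h4 : u hσ a b hab * d hσ l h0 * u hσ x _ h2 = u hσ x _ h2 * d hσ l h0 * (d hσ l h0)⁻¹ * u hσ 0 c h3 * d hσ l h0 := by
    rw [mul_inv_cancel_right]
    refine ext' ?_
    simp [coe_mul', u_coe, d_coe, hc]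
    field_simp
    clear * - hx hx'
    grind (ematch := 0)
  have h' := h.smul hσ (k := (u hσ x _ h2)⁻¹) (by rw [inv_smul_eq_iff]; simp [u_smul])
  have h5 : d hσ l h0 • (u hσ x _ h2)⁻¹ • ω = (u hσ x _ h2)⁻¹ • ω := by
    rw [← smul_left_cancel_iff (u hσ 0 c h3), h'.z.z, smul_smul, smul_smul, eq_inv_smul_iff, smul_smul,
      show ∀ a b c : Γ σ, a * (b * c * a⁻¹) = a * c * c⁻¹ * b * c * a⁻¹ from fun a b c => by group, ← h4,
      mul_inv_cancel_right, hg]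
  have h6 := pow_mem (show _ ∈ stabilizer (Γ σ) _ from h5) (q + 1)
  rw [d_pow] at h6
  have h7 := A0 B h' (by rw [pow_succ, ← hq, map_mul, hσ, mul_comm]) _ h6
  rw [pow_succ, ← hq, mul_comm] at h7
  exact hn (B1 B h' hζ h7 h0 h5 hs)

theorem C0 {κ : F} (h1 : σ κ * κ = 1) (h2 : κ ^ 3 ≠ 1) {a b : F} {hab} (e : u hσ a b hab • ω = ω) : a = 0 := by
  by_contra ha
  have ha' := (map_ne_zero σ).2 ha
  have h0 : κ ≠ 0 := by rintro rfl; simp at h1
  have hζ0 : ζ ≠ 0 := by rintro rfl; simp at hζ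
  have hζ1 := (map_ne_zero σ).2 hζ0
  have h3 : σ κ * σ κ * σ κ + κ * κ * κ ≠ 0 := fun e => h2 (by clear * - e h1; grind (ematch := 0))
  obtain ⟨c, hc⟩ : ∃ c, c * (σ κ * σ κ * σ κ + κ * κ * κ) = a * σ a * ζ * σ ζ := ⟨_, div_mul_cancel₀ _ h3⟩
  have hc' : σ c = c := by
    have := congrArg σ hc
    simp only [map_mul, map_add, hσ] at this
    clear * - this hc h3
    grind (ematch := 0)
  have hc0 : c ≠ 0 := by rintro rfl; simp [ha, hζ0] at hc
  have k1 := fun x hx => cube_mat hσ (a := x) (b := c * (σ κ * σ κ * σ κ)) hx (mul_ne_zero hc0 h0) (by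
    rw [map_mul, hc']; linear_combination c * c * σ κ * σ κ * h1)
  have k2 : c * (σ κ * σ κ * σ κ) + σ (c * (σ κ * σ κ * σ κ)) = a * ζ * σ (a * ζ) := by simp [hσ, hc']; clear * - hc; grind (ematch := 0)
  have k3 : a * σ (a * ζ) + σ (a * σ (a * ζ)) = a * σ a := by simp [hσ]; clear * - hζ; grind (ematch := 0)
  have k4 : u hσ a _ k3 • ω = ω := by
    rw [show u hσ a _ k3 = u hσ a b hab * u hσ 0 (b + a * σ (a * ζ)) (by simp [hσ]; clear * - hζ hab; grind (ematch := 0)) from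
      ext' (by simp [coe_mul', u_coe]; clear * - b; grind (ematch := 0)), mul_smul, h.z.z, e]
  have k2' : c * (σ κ * σ κ * σ κ) + σ (c * (σ κ * σ κ * σ κ)) = (a + a * ζ) * σ (a + a * ζ) := by
    simp [hσ, hc']; clear * - hc hζ; grind (ematch := 0)
  have k3' : u hσ a _ k3 * u hσ _ _ k2 = u hσ (a + a * ζ) _ k2' := ext' (by
    simp [coe_mul', u_coe]; clear * - a; grind (ematch := 0))
  obtain ⟨g, -, k5, k6, k7⟩ := cube B k4 k4 (k1 _ k2) (by
    rw [← mul_assoc (u hσ a _ k3), ← mul_assoc (u hσ a _ k3), k3']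
    exact k1 _ _)
  obtain ⟨α, k8⟩ := h.b g k5
  have k9 := sc B h hq hζ hs k5 k8
  obtain ⟨x, y, hxy, hα, rfl⟩ := decomp hσ k8
  rw [mul_smul, hs _ α (d_scal hσ hα k9)] at k6
  obtain ⟨β, k6⟩ := pt h.b k6
  simp [mul_smul, t_smul, u_smul, d_smul] at k6
  obtain ⟨rfl, rfl⟩ : x = 0 ∧ y = 0 := by
    have k0 : (σ κ)⁻¹ * (σ c)⁻¹ ≠ 0 := by simp [h0, hc0]
    generalize (σ κ)⁻¹ * (σ c)⁻¹ = n at k6 k0
    have : σ x = 0 := by clear * - k6 k0; grind (ematch := 0)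
    obtain rfl : x = 0 := by simpa using this
    clear * - k6 k0
    grind (ematch := 0)
  rw [show u hσ 0 0 hxy = 1 from ext' (by simp [u_coe, one_fin_three]), one_mul, mul_smul,
    hs _ α (d_scal hσ hα k9)] at k7
  obtain ⟨γ, k7⟩ := pt h.b k7
  have : (u hσ _ _ k2 * d hσ (c * κ) (mul_ne_zero hc0 h0) * t σ)⁻¹ • ![(1 : F), 0, 0] = ![0, 0, (c * κ)⁻¹] := by
    rw [inv_smul_eq_iff]
    simp [mul_smul, t_smul, u_smul, d_smul]
    field_simp
  rw [this] at k7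
  simp [u_smul, ha, hc0, h0] at k7

theorem C1.sq {κ : F} (h1 : σ κ * κ = 1) (h2 : κ ^ 3 ≠ 1) {g : Γ σ} (hg : g • ω = ω) (x : Ω) : (g * g) • x = x := by
  obtain ⟨l, k1⟩ := h.b g hg
  have k2 := sc B h hq hζ hs hg k1
  obtain ⟨a, b, hab, hl, rfl⟩ := decomp hσ k1
  simp only [mul_smul, hs _ l (d_scal hσ hl k2)] at hg ⊢
  obtain rfl := C0 B h hq hζ hs h1 h2 hg
  rw [smul_smul, show u hσ 0 b hab * u hσ 0 b hab = 1 from ext' (by
    rw [coe_mul', u_coe, mul_fin_three]; simp [one_fin_three, CharTwo.add_self_eq_zero]), one_smul]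

omit h hq hs

theorem two {κ : F} (h1 : σ κ * κ = 1) (h2 : κ ^ 3 ≠ 1) (k0 : U hσ ω ![1, 0, 0]) (k2 : U hσ ω ![0, 0, 1]) :
    ∃ v, U hσ ω v ∧ v 1 ≠ 0 := by
  by_contra! hn
  obtain ⟨μ, e1, e2, e3⟩ : ∃ μ : F, σ μ = μ ∧ μ ≠ 0 ∧ μ ≠ 1 :=
    ⟨κ + σ κ, by rw [map_add, hσ, add_comm], by grind (ematch := 0), by grind (ematch := 0)⟩
  have hB : ∀ g : Γ σ, g • ω = ω → g.1.1 1 0 = 0 ∧ ∃ α : F, g • ![(0 : F), 1, 0] = α • ![0, 1, 0] := fun g hg => by
    have a1 := hn _ (hg ▸ k0.smul hσ g)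
    have a2 := hn _ (hg ▸ k2.smul hσ g)
    simp [smul_eq, mulVec, dotProduct, Fin.sum_univ_three] at a1 a2
    have r1 := rel g 1 0
    have r2 := rel g 1 2
    have r3 := congrArg σ (det' g)
    simp [a1, a2] at r1 r2 r3
    refine ⟨a1, g.1.1 1 1, ?_⟩
    simp [vec_eq]
    clear * - r1 r2 r3
    grind (ematch := 0)
  have h3 : ∀ c hc, (t σ * u hσ 0 c hc * t σ) • ω = ω := fun c hc => by
    convert k2.2 c (by simp at hc; grind (ematch := 0)) using 2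
    exact ext' (by simp [coe_mul', u_coe, t_coe, T])
  have h4 : d hσ μ e2 • ω = ω := by
    have : ∀ c, σ c = c → c + σ c = 0 * σ 0 := fun c hc => by simp [hc, CharTwo.add_self_eq_zero]
    rw [show d hσ μ e2 = u hσ 0 (μ + 1) (this _ (by simp [e1])) * (t σ * u hσ 0 1 (this _ (by simp)) * t σ) *
      u hσ 0 (μ⁻¹ + 1) (this _ (by simp [e1])) * (t σ * u hσ 0 μ (this _ e1) * t σ) from ext' (by
        simp [coe_mul', u_coe, t_coe, d_coe, e1, e2]; grind (ematch := 0)), mul_smul, mul_smul, mul_smul, h3, k0.z, h3, k0.z]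
  have h5 : ζ + σ ζ = 1 * σ 1 := by simp [hζ]
  have h6 : μ * μ * ζ + σ (μ * μ * ζ) = μ * σ μ := by simp [e1, ← mul_add, hζ]
  have h7 : d hσ μ e2 * u hσ 1 ζ h5 * (d hσ μ e2)⁻¹ = u hσ μ _ h6 :=
    mul_inv_eq_iff_eq_mul.2 (ext' (by simp [coe_mul', d_coe, u_coe, e1, e2]; field_simp))
  obtain ⟨g, a, -, c, d⟩ := frob B h4 h4 (m := u hσ 1 ζ h5) (by
    rw [h7, show ∀ a b : Γ σ, a * b⁻¹ * a⁻¹ * b = a * (a * b)⁻¹ * b from fun a b => by group,
      show u hσ 1 ζ h5 * u hσ μ _ h6 = u hσ μ _ h6 * u hσ 1 ζ h5 from ext' (by simp [coe_mul', u_coe, add_comm, e1, add_assoc])]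
    simp)
  rw [h7] at c d
  obtain ⟨a, α, b⟩ := hB g a
  obtain ⟨γ, c⟩ := pt (fun g hg => (hB g hg).2) c
  obtain ⟨δ, d⟩ := pt (fun g hg => (hB g hg).2) d
  have := det' g
  simp [mul_smul, u_smul, vec_eq] at b c d
  clear * - a b c d this e2 e3
  grind (ematch := 0)

omit B

theorem all (k0 : U hσ ω ![1, 0, 0]) (k2 : U hσ ω ![0, 0, 1]) {v} (hv : U hσ ω v) (h1 : v 1 ≠ 0) (w) (hw : J σ w w = 0) :
    U hσ ω w := by
  have h2 : ∀ {a b b' : F}, U hσ ω ![b, a, 1] → b' + σ b' = a * σ a → U hσ ω ![b', a, 1] := fun {a b b'} h e => by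
    have h3 : b + b' + σ (b + b') = 0 * σ 0 := by
      have := h.1
      simp [J] at this ⊢
      grind (ematch := 0)
    simpa [k0.z, u_smul, ← add_assoc, CharTwo.add_self_eq_zero] using h.smul hσ (u hσ 0 _ h3)
  have h3 : ∀ {a b a' b' b'' n : F}, U hσ ω ![b, a, 1] → U hσ ω ![b', a', 1] → a ≠ a' → σ n ≠ n →
      b'' + σ b'' = (a + n * (a + a')) * σ (a + n * (a + a')) → U hσ ω ![b'', a + n * (a + a'), 1] :=
    fun {a b a' b' b'' n} h h' e1 e2 e3 => by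
    have e4 : a + a' ≠ 0 := fun e => e1 (by grind (ematch := 0))
    have e5 := (map_ne_zero σ).2 e4
    have e6 : n ≠ 0 := by rintro rfl; simp at e2
    have e7 := (map_ne_zero σ).2 e6
    have e8 : n + σ n ≠ 0 := fun e => e2 (by grind (ematch := 0))
    have e9 := h.1
    rw [map_add] at e5
    simp [J] at e9
    obtain ⟨c, hc⟩ : ∃ c, c * (n * σ n * (a + a') * (σ a + σ a')) = n + σ n := ⟨_, div_mul_cancel₀ _ (by simp [*])⟩
    have hc' : σ c = c := by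
      have := congrArg σ hc
      simp only [map_mul, map_add, hσ] at this
      clear * - this hc e4 e5 e6 e7
      grind (ematch := 0)
    have hc0 : c ≠ 0 := by rintro rfl; exact e8 (by simpa using hc.symm)
    have k := ((h2 h' (b' := (n⁻¹ + 1) / c + a' * σ a + σ b) (by
      simp [hσ, hc']
      field_simp
      clear * - hc e9
      grind (ematch := 0))).smul hσ (T hσ _ h.1 c hc')).scale hσ n
    rw [h.2, T_smul] at k
    refine h2 (b := n * ((n⁻¹ + 1) / c + a' * σ a + σ b + (n⁻¹ + 1) * b)) ?_ e3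
    convert k using 1
    simp [J]
    field_simp
    clear * - n
    grind (ematch := 0)
  have h4 : ∀ x : Fin 3 → F, x 2 ≠ 0 → x = x 2 • ![x 0 / x 2, x 1 / x 2, 1] := fun x hx => by
    ext i
    fin_cases i <;> simp [mul_div_cancel₀, hx]
  have h5 : ∀ x : Fin 3 → F, J σ x x = 0 → x 2 = 0 → x = x 0 • ![1, 0, 0] := fun x hx e => by
    ext i
    simp [J, e] at hx
    fin_cases i <;> simp [hx, e]
  have h6 : v 2 ≠ 0 := fun e => h1 (by rw [h5 v hv.1 e]; simp)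
  have h7 := hv.scale hσ (v 2)⁻¹
  rw [(inv_smul_eq_iff₀ h6).2 (h4 v h6)] at h7
  have h8 := div_ne_zero h1 h6
  generalize v 1 / v 2 = a, v 0 / v 2 = b at h7 h8
  by_cases e : w 2 = 0
  · exact h5 w hw e ▸ k0.scale hσ _
  rw [h4 w e]
  refine U.scale hσ ?_ _
  have h9 : w 0 / w 2 + σ (w 0 / w 2) = w 1 / w 2 * σ (w 1 / w 2) := by
    have := (map_ne_zero σ).2 e
    simp [J] at hw ⊢
    field_simp
    clear * - hw
    grind (ematch := 0)
  generalize w 1 / w 2 = x, w 0 / w 2 = y at h9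
  have k1 : ∀ {a b : F}, U hσ ω ![b, a, 1] → a ≠ 0 → σ (x / a) ≠ x / a → U hσ ω ![y, x, 1] := fun h e1 e2 => by
    simpa [e1] using h3 k2 h e1.symm e2 (by simpa [e1] using h9)
  by_cases e1 : σ (x / a) = x / a
  · by_cases e2 : x = 0
    · exact e2 ▸ h2 k2 (e2 ▸ h9)
    have e3 : σ ζ ≠ ζ := fun e => by simp [e, CharTwo.add_self_eq_zero] at hζ
    have e4 : ζ ≠ 0 := by rintro rfl; simp at hζ
    refine k1 (a := ζ * a) (b := ζ * (ζ * a * σ (ζ * a))) ?_ (mul_ne_zero e4 h8) fun e => e3 ?_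
    · simpa using h3 k2 h7 h8.symm e3 (by simp [hσ]; linear_combination (ζ * a * (σ ζ * σ a)) * hζ)
    · rw [mul_comm, ← div_div, map_div₀, e1] at e
      exact (mul_left_cancel₀ (div_ne_zero e2 h8) ((div_eq_div_iff ((map_ne_zero σ).2 e4) e4).1 e)).symm
  · exact k1 h7 h8 e1

omit hζ in
theorem main (B : Bin (Γ σ) Ω) {q : ℕ} (hq : ∀ x, σ x = x ^ q) {ζ : F} (hζ : ζ + σ ζ = 1) {κ : F} (h1 : σ κ * κ = 1)
    (h2 : κ ^ 3 ≠ 1) (hs : ∀ (g : Γ σ) (l : F), (∀ v : Fin 3 → F, g • v = l • v) → ∀ ω : Ω, g • ω = ω)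
    (k0 : U hσ ω ![1, 0, 0]) (hp : ∃ g : Γ σ, ¬ U hσ ω (g • ![1, 0, 0])) {g : Γ σ} (hg : g • ω = ω) (x : Ω) :
    (g * g) • x = x := by
  refine C1.sq B ⟨k0, fun k hk => by_contra fun hn => ?_⟩ hq hζ hs h1 h2 hg x
  have h3 := hk ▸ k0.smul hσ k
  generalize k • ![(1 : F), 0, 0] = v at h3 hn
  have h4 := h3.1
  have h5 : v 2 ≠ 0 := fun e => hn ⟨v 0, by
    simp [J, e] at h4
    ext i
    fin_cases i <;> simp [h4, e]⟩
  have h5' := (map_ne_zero σ).2 h5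
  have h6 : v 0 / v 2 + σ (v 0 / v 2) = σ (v 1 / v 2) * σ (σ (v 1 / v 2)) := by
    simp [J, hσ] at h4 ⊢
    field_simp
    clear * - h4
    grind (ematch := 0)
  have h7 := k0.smul hσ (u hσ _ _ h6)⁻¹
  have h8 := (h3.scale hσ (v 2)⁻¹).smul hσ (u hσ _ _ h6)⁻¹
  rw [inv_smul_eq_iff.2 (show ![(1 : F), 0, 0] = u hσ _ _ h6 • ![1, 0, 0] by simp [u_smul])] at h7
  rw [inv_smul_eq_iff.2 (show (v 2)⁻¹ • v = u hσ _ _ h6 • ![0, 0, 1] by
    ext i
    fin_cases i <;> simp [u_smul, hσ, h5, div_eq_inv_mul])] at h8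
  obtain ⟨w, k1, k2⟩ := two B hζ h1 h2 h7 h8
  obtain ⟨g, hg⟩ := hp
  have := (all hζ h7 h8 k1 k2 ((u hσ _ _ h6)⁻¹ • g • ![1, 0, 0]) (by rw [Γ.form, Γ.form, iso0])).smul hσ (u hσ _ _ h6)
  rw [smul_inv_smul, smul_inv_smul] at this
  exact hg this

omit hζ in
theorem exists_equiv {q : ℕ} (hq : H11.QConj σ q) : Nonempty (Γ σ ≃* SU 3 F q) := by
  obtain ⟨ζ, hζ⟩ := H11.exists_trace_eq hq.ne_id hq.invol (map_one σ)
  have e1 : ∀ u v, hermForm 3 F q (H18.qMat hζ • u) (H18.qMat hζ • v) = J σ u v := fun u v => by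
    change hermForm 3 F q (!![_, _, _; _, _, _; _, _, _] *ᵥ u) (!![_, _, _; _, _, _; _, _, _] *ᵥ v) = _
    simp [hermForm, ← hq.eq, J, Fin.sum_univ_three, mulVec, dotProduct, hq.invol]
    clear * - hζ
    grind (ematch := 0)
  refine ⟨H11.subgroupEquivOfIff (MulAut.conj (H18.qMat hζ)) _ _ fun g => ⟨fun h u v => ?_, fun h u v => ?_⟩⟩
  · change hermForm 3 F q ((_ * g * _) • u) ((_ * g * _) • v) = _
    rw [mul_smul, mul_smul, mul_smul, mul_smul, e1, show J σ (g • _) (g • _) = _ from h _ _, ← e1, smul_inv_smul,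
      smul_inv_smul]
  · have : hermForm 3 F q ((_ * g * _) • H18.qMat hζ • u) ((_ * g * _) • H18.qMat hζ • v) = _ := h _ _
    rwa [mul_smul, mul_smul, mul_smul, mul_smul, inv_smul_smul, inv_smul_smul, e1, e1] at this

omit hζ in
theorem psu_sq {G Ω : Type*} [Group G] [MulAction G Ω] [Finite G] [Finite Ω] [FaithfulSMul G Ω] [IsPretransitive G Ω]
    (B : Bin G Ω) (hc : ∀ {s t : G}, orderOf s = 2 → orderOf t = 2 → IsConj s t) {q : ℕ} (hq : H11.QConj σ q) (h2 : q ≠ 2)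
    (e : G ≃* PSU 3 F q) {s : G} {x : Ω} (hs : orderOf s = 2) (hx : s • x = x) {g : G} (hg : g • x = x) : g * g = 1 := by
  obtain ⟨φ⟩ := exists_equiv hq
  obtain ⟨ζ, hζ⟩ := H11.exists_trace_eq hq.ne_id hq.invol (map_one σ)
  obtain ⟨κ, k1, k2⟩ := hq.exists_normOne_cube h2
  let π : Γ σ →* G := e.symm.toMonoidHom.comp ((QuotientGroup.mk' _).comp φ.toMonoidHom)
  have h3 : Function.Surjective π := e.symm.surjective.comp ((QuotientGroup.mk'_surjective _).comp φ.surjective)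
  have h4 : ∀ k, π k = 1 ↔ k ∈ center (Γ σ) := fun k => e.symm.map_eq_one_iff.trans
    ((QuotientGroup.eq_one_iff _).trans (H11.mem_center_equiv φ k).symm)
  letI := MulAction.compHom Ω π
  have h5 : ∀ (k : Γ σ) (y : Ω), k • y = π k • y := fun _ _ => rfl
  have h6 : ∀ c d hc hd he, T hq.invol _ iso0 c hc * T hq.invol _ iso0 d hd = T hq.invol _ iso0 (c + d) he :=
    fun c d hc hd he => ext' (by simp [T0, coe_mul', u_coe, add_comm])
  have h7 : ∀ h, T hq.invol _ iso0 0 h = 1 := fun h => ext' (by simp [T0, u_coe, one_fin_three])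
  have h8 : ∀ c hc, c ≠ 0 → orderOf (π (T hq.invol _ iso0 c hc)) = 2 := fun c hc h0 => orderOf_eq_prime
    (by rw [sq, ← map_mul, h6 c c hc hc (by simp [hc]), ← map_one π, ← h7 (map_zero σ)]; simp [CharTwo.add_self_eq_zero])
    fun e => h0 (by simpa [T0, coe_mul', u_coe, t_coe] using congrArg (·.1.1 0 0) (mem_center_iff.1 ((h4 _).1 e) (t σ)).symm)
  obtain ⟨c, h9⟩ := isConj_iff.1 (hc hs (h8 1 (map_one σ) one_ne_zero))
  have k3 : π (T hq.invol _ iso0 1 (map_one σ)) • c • x = c • x := by rw [← h9, mul_smul, inv_smul_smul, mul_smul, hx]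
  obtain ⟨k, hk⟩ := h3 (c * g * c⁻¹)
  have := main (hσ := hq.invol) (ω := c • x) (fun n I J hn h => ?_) hq.eq hζ k1 k2 (fun g l h y => ?_)
    ⟨iso0, fun d hd => ?_⟩ ?_ (g := k) (by rw [h5, hk, mul_smul, inv_smul_smul, mul_smul, hg])
  · have k4 : π (k * k) = 1 := eq_of_smul_eq_smul fun y : Ω => (this y).trans (one_smul G y).symm
    rw [map_mul, hk, conj_mul] at k4
    simpa using k4
  · obtain ⟨g, hg⟩ := B n I J hn fun i j e => (h i j e).elim fun g hg => ⟨π g, hg⟩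
    obtain ⟨g, rfl⟩ := h3 g
    exact ⟨g, hg⟩
  · rw [h5, (h4 g).2 (mem_center_iff.2 fun k => ext_smul fun v => by rw [mul_smul, mul_smul, h, h, smul_comm]), one_smul]
  · by_cases e0 : d = 0
    · subst e0
      rw [h7, one_smul]
    by_cases e1 : 1 + d = 0
    · obtain rfl : d = 1 := by grind (ematch := 0)
      exact k3
    refine B.fix hc (h8 d hd e0) (h8 1 (map_one σ) one_ne_zero) ?_ ?_ k3
    · rw [← map_mul, h6 _ _ _ _ (by simp [hd]), h8 _ _ e1]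
    · rw [← map_mul, ← map_mul, h6 _ _ _ _ (by simp [hd]), h6 _ _ _ _ (by simp [hd])]
      simp only [add_comm]
  · by_contra! hn
    have : π (T hq.invol _ iso0 1 (map_one σ)) = 1 := eq_of_smul_eq_smul fun y : Ω => by
      obtain ⟨a, rfl⟩ := exists_smul_eq G (c • x) y
      obtain ⟨a, rfl⟩ := h3 a
      have := (hn a⁻¹).2 1 (map_one σ)
      rw [← T_conj _ _ iso0, inv_inv, mul_smul, mul_smul, inv_smul_eq_iff] at this
      exact this.trans (one_smul G _).symm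
    simpa [this] using h8 1 (map_one σ) one_ne_zero

end Cfsg.Agent.H13.BU
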