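import Mathlib
import Cfsg.Agent.H13.PnD
import Cfsg.Agent.H29.Pn0

/-! Sylow 2-normalisers in a wreath product, in the form needed for pronormality. -/

set_option autoImplicit false
set_option linter.unusedSectionVars false

open Cfsg Equiv SemidirectProduct
open Cfsg.Agent.H17 Cfsg.Agent.H29.Pn

namespace Cfsg.Agent.H13.Pn

theorem ppat_all {G : Type*} [Group G] [Finite G] {S : Subgroup G} (hS : H18.SylIn 2 S ⊤) (h : PPat S)
    (H : Subgroup G) (hH : S ≤ H) (g : G) (hg : g ∈ Subgroup.normalizer (S : Set G)) :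
    g ∈ H ⊔ cjs H g ∨ cjs H g = H := by
  obtain ⟨a, b, h1, h2, e⟩ := exists_odd_part g
  have hb : g ^ b ∈ H := hH (mem_of_pEl_normalizer hS trivial h2 (pow_mem hg b))
  have k : cjs H g = cjs H (g ^ a) := by rw [e, cjs_mul, cjs_eq_of_mem hb, ← e]
  rw [k]
  refine (h.2 H hH _ (pow_mem hg a) h1).imp_left fun c => ?_
  have := mul_mem c (Subgroup.mem_sup_left hb)
  rwa [← e] at this

variable {ι : Type} [Fintype ι] [DecidableEq ι] {U : Type*} [Group U] [Finite U] {Q : Subgroup U}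
  {u : Subgroup.normalizer (Q : Set U) →* Multiplicative (ZMod 3)} {k : ℕ} {S : Subgroup (Wr ι U)}

theorem bq_eq : Bq ι Q = Bs fun _ : ι => Q := by
  refine le_antisymm ?_ fun x hx => ⟨x.left, fun i _ => hx.2 i, SemidirectProduct.ext rfl hx.1.symm⟩
  rintro _ ⟨f, hf, rfl⟩
  exact ⟨rfl, fun i => hf i trivial⟩

theorem D1 (hQ : H18.SylIn 2 Q ⊤) (hu : ∀ n, u n = 1 ↔ n.1 ∈ Q) (hk : Fintype.card ι = 2 ^ k)
    (hS : H18.SylIn 2 S ⊤) (hB : Bq ι Q ≤ S) :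
    ∀ a ∈ Subgroup.normalizer (S : Set (Wr ι U)), ∀ b ∈ Subgroup.normalizer (S : Set (Wr ι U)), a * b * a⁻¹ * b⁻¹ ∈ S :=
  fun _ ha _ hb => d1 hQ hu hk hS (bq_eq.ge.trans hB) ha hb

theorem D2 (hQ : H18.SylIn 2 Q ⊤) (hu : ∀ n, u n = 1 ↔ n.1 ∈ Q) (hk : Fintype.card ι = 2 ^ k)
    (hS : H18.SylIn 2 S ⊤) (hB : Bq ι Q ≤ S) {K : Subgroup (Wr ι U)} (hK : S ≤ K) (hG : Good u K) :
    Subgroup.normalizer (S : Set (Wr ι U)) ≤ K := by
  obtain ⟨η, h1, h2, h3⟩ := hG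
  exact d2 hQ hu hk hS (bq_eq.ge.trans hB) hK (x := ⟨η, h2⟩) h1 h3

theorem D2' (hQ : H18.SylIn 2 Q ⊤) (hu : ∀ n, u n = 1 ↔ n.1 ∈ Q) (hk : Fintype.card ι = 2 ^ k)
    (hS : H18.SylIn 2 S ⊤) (hB : Bq ι Q ≤ S) (h : ∀ n, u n = 1) : Subgroup.normalizer (S : Set (Wr ι U)) ≤ S :=
  d2_triv hQ hu hk hS (bq_eq.ge.trans hB) h

theorem D3 (hQ : H18.SylIn 2 Q ⊤) (hu : ∀ n, u n = 1 ↔ n.1 ∈ Q) (hU : PP U) (hk : Fintype.card ι = 2 ^ k)
    (hS : H18.SylIn 2 S ⊤) (hB : Bq ι Q ≤ S) {H : Subgroup (Wr ι U)} (hH : S ≤ H) {g : Wr ι U}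
    (hg : g ∈ Subgroup.normalizer (S : Set (Wr ι U))) (ho : Odd (orderOf g)) (hG : ¬ Good u (H ⊔ cjs H g)) :
    cjs H g = H := by
  refine d3 hQ hu hk hS (bq_eq.ge.trans hB) (ppat_all hQ (hU Q hQ)) hH hg ho fun i n hn => by_contra fun c => hG ?_
  have h : (sg i n.1 : W ι U) ∈ En ι (Subgroup.normalizer (Q : Set U)) := (sg_mem_bs (H := fun _ => _) n.2).2
  exact ⟨_, hn, h, fun e => c ((chi_sg i n h).symm.trans e)⟩

/-- The wreath product has the strong pronormality property. -/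
theorem ppat_wr (hQ : H18.SylIn 2 Q ⊤) (hu : ∀ n, u n = 1 ↔ n.1 ∈ Q) (hU : PP U) (hk : Fintype.card ι = 2 ^ k)
    (hS : H18.SylIn 2 S ⊤) (hB : Bq ι Q ≤ S) : PPat S :=
  ⟨D1 hQ hu hk hS hB, fun H hH g hg ho => by
    by_cases c : Good u (H ⊔ cjs H g)
    · exact Or.inl (D2 hQ hu hk hS hB (hH.trans le_sup_left) c hg)
    · exact Or.inr (D3 hQ hu hU hk hS hB hH hg ho c)⟩

end Cfsg.Agent.H13.Pn
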