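import Mathlib
import Cfsg.Agent.H13.SzPart

/-!
The affine groups `V^k ⋊ Sz(q)` have the prime graph of `Sz(q)`.
-/

set_option autoImplicit false
namespace Cfsg.Agent.H13
open Matrix MulAction Subgroup

theorem exists_type_zero_mulEquiv (E : Type*) [Group E] [Finite E] :
    ∃ (H : Type) (_ : Group H) (_ : Fintype H), Nonempty (H ≃* E) := by
  obtain ⟨n, ⟨e⟩⟩ := Finite.exists_equiv_fin E
  let := e.symm.group
  exact ⟨Fin n, this, inferInstance, ⟨e.symm.mulEquiv⟩⟩

/-- The diagonal action of a matrix group on `k` copies of the natural module. -/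
def diagAut {G F n : Type*} [Group G] [Field F] [Fintype n] [DecidableEq n] (ρ : G →* Matrix n n F) (k : ℕ) :
    G →* MulAut (Multiplicative (Fin k → n → F)) :=
  MonoidHom.mk' (fun g =>
    { toFun := fun v => Multiplicative.ofAdd fun i => ρ g *ᵥ v.toAdd i
      invFun := fun v => Multiplicative.ofAdd fun i => ρ g⁻¹ *ᵥ v.toAdd i
      left_inv := fun v => by
        apply Multiplicative.toAdd.injective
        ext1 i
        simp only [toAdd_ofAdd, mulVec_mulVec, ← map_mul, inv_mul_cancel, map_one, one_mulVec]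
      right_inv := fun v => by
        apply Multiplicative.toAdd.injective
        ext1 i
        simp only [toAdd_ofAdd, mulVec_mulVec, ← map_mul, mul_inv_cancel, map_one, one_mulVec]
      map_mul' := fun v w => by
        apply Multiplicative.toAdd.injective
        ext1 i
        simp only [toAdd_ofAdd, toAdd_mul, Pi.add_apply, mulVec_add] })
    fun g h => MulEquiv.ext fun v => by
      apply Multiplicative.toAdd.injective
      ext1 i
      simp [mulVec_mulVec]

namespace SzData

variable {G : Type*} [Group G] {F : Type*} [Field F] (S : SzData G F)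

theorem eq_zero_of_h_mulVec {k : Fˣ} (hk : k ≠ 1) {v : Fin 4 → F} (h : S.ρ (S.h k) *ᵥ v = v) : v = 0 := by
  rw [ρ_h] at h
  have h0 : (k : F) ^ 2 ^ S.m ≠ 0 := pow_ne_zero _ k.ne_zero
  have h1 : (k : F) ^ 2 ^ S.m ≠ 1 := fun e => hk (Units.ext (by rw [← S.θ_root k, e, map_one, Units.val_one]))
  generalize (k : F) ^ 2 ^ S.m = l at h h0 h1
  have h2 : l * S.θ l ≠ 1 := fun e => h1 (S.mul_θ_eq_one e)
  have key : ∀ c x : F, c ≠ 1 → c * x = x → x = 0 := fun c x hc hx => by
    by_contra h
    exact hc (mul_right_cancel₀ h (hx.trans (one_mul x).symm))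
  ext i
  have := congrFun h i
  fin_cases i
  · exact key _ _ h2 (by simpa [szH, mulVec, dotProduct, Fin.sum_univ_four] using this)
  · exact key _ _ h1 (by simpa [szH, mulVec, dotProduct, Fin.sum_univ_four] using this)
  · exact key l⁻¹ _ (by simpa using h1) (by simpa [szH, mulVec, dotProduct, Fin.sum_univ_four] using this)
  · exact key (l * S.θ l)⁻¹ _ (fun e => h2 (inv_eq_one.1 e))
      (by simpa [szH, mulVec, dotProduct, Fin.sum_univ_four] using this)

theorem eq_zero_of_mulVec_of_prime {g : G} {s : ℕ} (hs : s.Prime) (h2 : s ≠ 2) (hg : orderOf g = s) {v : Fin 4 → F}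
    (h : S.ρ g *ᵥ v = v) : v = 0 := by
  have h1 : g ≠ 1 := fun e => hs.one_lt.ne' (by rw [← hg, e, orderOf_one])
  rcases S.trichotomy h1 with h3 | ⟨-, l, k, hk⟩ | h3
  · obtain ⟨-, x, hx⟩ := S.mem_conjSet_U_iff.1 h3
    exact absurd (S.eq_one_of_mem_UAt_of_odd hx (hs.odd_of_ne_two h2) (by rw [← hg, pow_orderOf_eq_one])) h1
  · have h4 : S.ρ l *ᵥ v = 0 := S.eq_zero_of_h_mulVec (k := k)
      (fun e => conj_ne_one l h1 (by rw [← hk, e, map_one]))
      (by rw [hk, mulVec_mulVec, ← map_mul, inv_mul_cancel_right, map_mul, ← mulVec_mulVec, h])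
    have := congrArg (S.ρ l⁻¹ *ᵥ ·) h4
    simpa only [mulVec_mulVec, ← map_mul, inv_mul_cancel, map_one, one_mulVec, mulVec_zero] using this
  · by_contra hv
    have h4 := S.isIrrMat_of_prime hs hg (dvd_trans (hg ▸ Subgroup.orderOf_dvd_natCard _
      (mem_centralizer_singleton_iff.2 rfl)) h3.card_centralizer_dvd)
    have := h4.eq_smul_of_mulVec rfl hv (c := 1) (by rw [h, one_smul])
    exact h1 (S.inj (by rw [this, one_smul, map_one]))

include S in
theorem exists_same_prime_graph (N : ℕ) :
    ∃ (H : Type) (_ : Group H) (_ : Fintype H), N < Fintype.card H ∧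
      ((∀ r : ℕ, r.Prime → (r ∣ Nat.card G ↔ r ∣ Nat.card H)) ∧
      (∀ r s : ℕ, r.Prime → s.Prime → r ≠ s → ((∃ x : G, orderOf x = r * s) ↔ (∃ y : H, orderOf y = r * s)))) := by
  have := S.finiteG
  have := S.finiteF
  have := S.charP
  let E := Multiplicative (Fin N → Fin 4 → F) ⋊[diagAut S.ρ N] G
  have hE : Nat.card E = (S.q ^ 4) ^ N * Nat.card G := by
    rw [SemidirectProduct.card, Nat.card_congr Multiplicative.toAdd, Nat.card_fun, Nat.card_fun, S.card]
    simp
  have hG : 0 < Nat.card G := Nat.card_pos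
  have h8 := S.eight_le_q
  have : Finite E := Nat.finite_of_card_ne_zero (by rw [hE]; positivity)
  obtain ⟨H, _, _, ⟨e⟩⟩ := exists_type_zero_mulEquiv E
  refine ⟨H, inferInstance, inferInstance, ?_, fun r hr => ?_, fun r s hr hs hrs => ?_⟩
  · rw [← Nat.card_eq_fintype_card, Nat.card_congr e.toEquiv, hE]
    have h1 : N < (S.q ^ 4) ^ N := Nat.lt_pow_self (Nat.one_lt_pow (by norm_num) (by omega))
    nlinarith
  · rw [Nat.card_congr e.toEquiv, hE]
    refine ⟨fun h => h.mul_left _, fun h => ?_⟩
    rcases hr.dvd_mul.1 h with h | h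
    · rw [S.card_G]
      exact (((hr.dvd_of_dvd_pow (hr.dvd_of_dvd_pow h)).trans (dvd_pow_self _ two_ne_zero)).mul_right _).mul_right _
    · exact h
  · constructor
    · rintro ⟨x, hx⟩
      exact ⟨e.symm (SemidirectProduct.inr x), by
        rw [MulEquiv.orderOf_eq, orderOf_injective _ SemidirectProduct.inr_injective, hx]⟩
    · rintro ⟨y, hy⟩
      rw [← e.orderOf_eq] at hy
      generalize e y = y at hy
      let π : E →* G := SemidirectProduct.rightHom
      have h1 : ∀ n, π y ^ n = 1 → ∃ v, SemidirectProduct.inl v = y ^ n := fun n hn => by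
        have : y ^ n ∈ π.ker := by rw [MonoidHom.mem_ker, map_pow, hn]
        rwa [← SemidirectProduct.range_inl_eq_ker_rightHom] at this
      have h2 : orderOf (π y) ∣ r * s := hy ▸ orderOf_map_dvd π y
      have h3 : r * s ∣ orderOf (π y) * 2 := by
        obtain ⟨v, hv⟩ := h1 _ (pow_orderOf_eq_one _)
        rw [← hy, orderOf_dvd_iff_pow_eq_one, pow_mul, ← hv, ← map_pow, ← map_one SemidirectProduct.inl]
        congr 1
        apply Multiplicative.toAdd.injective
        ext i j
        simp [CharTwo.two_eq_zero]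
      have h4 : ∀ s, s.Prime → s ≠ 2 → orderOf (π y) = s → y ^ s = 1 := fun s hs h2 h => by
        obtain ⟨v, hv⟩ := h1 s (by rw [← h, pow_orderOf_eq_one])
        have h5 : y * SemidirectProduct.inl v = SemidirectProduct.inl v * y := by rw [hv, pow_mul_comm']
        have h6 := congrArg SemidirectProduct.left h5
        rw [SemidirectProduct.mul_left, SemidirectProduct.mul_left, SemidirectProduct.left_inl,
          SemidirectProduct.right_inl, map_one, MulAut.one_apply, mul_comm v, mul_right_inj] at h6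
        have h7 : v = 1 := by
          apply Multiplicative.toAdd.injective
          ext1 i
          exact S.eq_zero_of_mulVec_of_prime hs h2 h (congrFun (congrArg Multiplicative.toAdd h6) i)
        rw [← hv, h7, map_one]
      refine ⟨π y, ?_⟩
      have key : ∀ r s : ℕ, r.Prime → s.Prime → orderOf y = r * s → orderOf (π y) ∣ r * s →
          r * s ∣ orderOf (π y) * 2 → r = 2 → s ≠ 2 → orderOf (π y) = r * s := by
        rintro r s hr hs hy h2 h3 rfl hs2
        rw [mul_comm 2 s] at h3
        obtain ⟨c, hc⟩ := Nat.dvd_of_mul_dvd_mul_right (by norm_num) h3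
        rw [hc, mul_comm 2 s] at h2
        have h5 := (Nat.dvd_prime Nat.prime_two).1 (Nat.dvd_of_mul_dvd_mul_left hs.pos h2)
        rcases h5 with rfl | rfl
        · have h6 := orderOf_dvd_of_pow_eq_one (h4 s hs hs2 (by rw [hc, mul_one]))
          rw [hy] at h6
          have := Nat.le_of_dvd hs.pos h6
          have := hs.pos
          omega
        · rw [hc, mul_comm]
      by_cases hr2 : r = 2
      · exact key r s hr hs hy h2 h3 hr2 fun e => hrs (hr2.trans e.symm)
      by_cases hs2 : s = 2
      · rw [mul_comm r s] at hy h2 h3 ⊢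
        exact key s r hs hr hy h2 h3 hs2 hr2
      refine Nat.dvd_antisymm h2 (Nat.Coprime.dvd_of_dvd_mul_right ?_ h3)
      exact Nat.coprime_two_right.2 ((hr.odd_of_ne_two hr2).mul (hs.odd_of_ne_two hs2))

end SzData

end Cfsg.Agent.H13
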