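import Mathlib
import Cfsg.Agent.H13.SzTori

/-!
A non-trivial word is not a law in the large Suzuki groups.
-/

set_option autoImplicit false
namespace Cfsg.Agent.H13
open Matrix Polynomial

section
variable {F : Type*} [Field F]

/-- The action of `u(0,b) w` on vectors. -/
def lawStep {R : Type*} [CommRing R] (r : ℕ) (b : R) (v : Fin 4 → R) : Fin 4 → R :=
  ![v 3 + b * v 1 + b ^ r * v 0, v 2 + b * v 0, v 1, v 0]

/-- The first coordinate dominates. -/
def LawDom (v : Fin 4 → F[X]) : Prop := v 0 ≠ 0 ∧ ∀ i, (v i).natDegree ≤ (v 0).natDegree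

theorem lawStep_dom {r : ℕ} (hr : 2 ≤ r) {b : F[X]} (hb : 0 < b.natDegree) {v : Fin 4 → F[X]} (hv : LawDom v) :
    LawDom (lawStep r b v) ∧ (lawStep r b v 0).natDegree = r * b.natDegree + (v 0).natDegree := by
  have hb0 : b ≠ 0 := by rintro rfl; simp at hb
  have h1 : (b ^ r * v 0).natDegree = r * b.natDegree + (v 0).natDegree := by
    rw [natDegree_mul (pow_ne_zero _ hb0) hv.1, natDegree_pow]
  have h0 : 2 * b.natDegree ≤ r * b.natDegree := Nat.mul_le_mul_right _ hr
  have h3 : ∀ i j, (v i + b * v j).natDegree ≤ b.natDegree + (v 0).natDegree := fun i j =>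
    (natDegree_add_le _ _).trans (max_le (by have := hv.2 i; omega)
      (natDegree_mul_le.trans (by have := hv.2 j; omega)))
  have h2 : (lawStep r b v 0).natDegree = r * b.natDegree + (v 0).natDegree := by
    change (v 3 + b * v 1 + b ^ r * v 0).natDegree = _
    rw [natDegree_add_eq_right_of_natDegree_lt, h1]
    have := h3 3 1
    omega
  refine ⟨⟨fun e => ?_, fun i => ?_⟩, h2⟩
  · rw [e, natDegree_zero] at h2
    omega
  · rw [h2]
    fin_cases i
    · exact h2.le
    · change (v 2 + b * v 0).natDegree ≤ _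
      have := h3 2 0
      omega
    · change (v 1).natDegree ≤ _
      have := hv.2 1
      omega
    · change (v 0).natDegree ≤ _
      omega

/-- Exponents attached to a letter. -/
def lawS (l : ℕ × Bool) : ℕ := 2 * l.1 + (if l.2 then 1 else 2)
/-- Exponents attached to a letter. -/
def lawT (l : ℕ × Bool) : ℕ := 2 * l.1 + (if l.2 then 2 else 1)

/-- The vector attached to a word. -/
def lawVec {R : Type*} [CommRing R] (r : ℕ) (x : R) : List (ℕ × Bool) → Fin 4 → R
  | [] => ![1, 0, 0, 0]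
  | [_] => ![1, 0, 0, 0]
  | l :: l' :: L => lawStep r (x ^ lawT l + x ^ lawS l') (lawVec r x (l' :: L))

theorem natDegree_X_pow_add_X_pow {a b : ℕ} (hab : a ≠ b) :
    (X ^ a + X ^ b : F[X]).natDegree = max a b := by
  rcases lt_or_gt_of_ne hab with h | h
  · rw [natDegree_add_eq_right_of_natDegree_lt (by simpa using h), natDegree_X_pow, max_eq_right h.le]
  · rw [natDegree_add_eq_left_of_natDegree_lt (by simpa using h), natDegree_X_pow, max_eq_left h.le]

theorem lawVec_dom {r : ℕ} (hr : 2 ≤ r) (l : ℕ × Bool) (L : List (ℕ × Bool)) (h : FreeGroup.IsReduced (l :: L)) :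
    LawDom (lawVec r (X : F[X]) (l :: L)) ∧ (lawVec r (X : F[X]) (l :: L) 0).natDegree + r * (2 * l.1 + 2) ≤
      r * (2 * ((l :: L).map fun l => 2 * l.1 + 2).sum) := by
  induction L generalizing l with
  | nil =>
    refine ⟨⟨by simp [lawVec], fun i => by fin_cases i <;> simp [lawVec]⟩, ?_⟩
    simp only [lawVec, List.map_cons, List.map_nil, List.sum_cons, List.sum_nil]
    simp only [cons_val_zero, natDegree_one]
    nlinarith
  | cons l' L ih =>
    rw [FreeGroup.isReduced_cons_cons] at h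
    obtain ⟨h1, h2⟩ := ih l' h.2
    have hne : lawT l ≠ lawS l' := by
      have := h.1
      obtain ⟨i, _ | _⟩ := l <;> obtain ⟨j, _ | _⟩ := l' <;> simp [lawT, lawS] at this ⊢ <;> omega
    have h3 := natDegree_X_pow_add_X_pow (F := F) hne
    have h4 : 0 < lawT l ∧ lawT l ≤ 2 * l.1 + 2 := by unfold lawT; split_ifs <;> omega
    have h5 : lawS l' ≤ 2 * l'.1 + 2 := by unfold lawS; split_ifs <;> omega
    obtain ⟨h6, h7⟩ := lawStep_dom hr (b := X ^ lawT l + X ^ lawS l') (by rw [h3]; omega) h1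
    refine ⟨h6, ?_⟩
    rw [lawVec, h7, h3, List.map_cons, List.sum_cons]
    have h8 : r * max (lawT l) (lawS l') ≤ r * (2 * l.1 + 2 + (2 * l'.1 + 2)) := Nat.mul_le_mul_left _ (by omega)
    nlinarith

theorem eval_lawStep (r : ℕ) (x : F) (b : F[X]) (v : Fin 4 → F[X]) (i : Fin 4) :
    eval x (lawStep r b v i) = lawStep r (eval x b) (fun j => eval x (v j)) i := by
  fin_cases i <;> simp [lawStep]

theorem eval_lawVec (r : ℕ) (x : F) (L : List (ℕ × Bool)) :
    (fun j => eval x (lawVec r (X : F[X]) L j)) = lawVec r x L := by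
  induction L with
  | nil => ext j; fin_cases j <;> simp [lawVec]
  | cons l L ih =>
    cases L with
    | nil => ext j; fin_cases j <;> simp [lawVec]
    | cons l' L =>
      ext j
      rw [lawVec, lawVec, eval_lawStep, ih]
      simp

end

namespace SzData
variable {G : Type*} [Group G] {F : Type*} [Field F] (S : SzData G F)

theorem ρ_u_w_mulVec (b : F) (v : Fin 4 → F) : S.ρ (S.u 0 b * S.w) *ᵥ v = lawStep S.r b v := by
  rw [map_mul, ρ_u, ρ_w, ← mulVec_mulVec]
  ext i
  fin_cases i <;> simp [szU, szf, suzukiForm, lawStep, mulVec, dotProduct, Fin.sum_univ_four, θ_eq]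

theorem law_word (x : F) (l : ℕ × Bool) (L : List (ℕ × Bool)) :
    S.ρ (FreeGroup.lift (fun i => S.u 0 (x ^ (2 * i + 1)) * S.w * S.u 0 (x ^ (2 * i + 2))) (FreeGroup.mk (l :: L))) *ᵥ
      ![1, 0, 0, 0] = lawStep S.r (x ^ lawS l) (lawVec S.r x (l :: L)) := by
  have hinv : ∀ b, (S.u 0 b)⁻¹ = S.u 0 b := fun b => by rw [u_inv]; simp
  have h1 : ∀ l : ℕ × Bool, (cond l.2 (S.u 0 (x ^ (2 * l.1 + 1)) * S.w * S.u 0 (x ^ (2 * l.1 + 2)))
      (S.u 0 (x ^ (2 * l.1 + 1)) * S.w * S.u 0 (x ^ (2 * l.1 + 2)))⁻¹) =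
      S.u 0 (x ^ lawS l) * S.w * S.u 0 (x ^ lawT l) := by
    rintro ⟨i, _ | _⟩
    · simp [lawS, lawT, hinv, w_inv, mul_assoc]
    · simp [lawS, lawT]
  rw [FreeGroup.lift_mk]
  simp only [h1]
  induction L generalizing l with
  | nil =>
    rw [List.map_cons, List.map_nil, List.prod_cons, List.prod_nil, mul_one, map_mul, ← mulVec_mulVec,
      ← ρ_u_w_mulVec]
    congr 1
    rw [ρ_u]
    exact szU_mulVec_none _ _ _
  | cons l' L ih =>
    rw [List.map_cons, List.prod_cons, map_mul, ← mulVec_mulVec, ih, lawVec, ← ρ_u_w_mulVec, ← ρ_u_w_mulVec,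
      ← ρ_u_w_mulVec, mulVec_mulVec, mulVec_mulVec, ← map_mul, ← map_mul, ← u_zero_mul]
    simp only [mul_assoc]

theorem exists_lift_ne_one (l : ℕ × Bool) (L : List (ℕ × Bool)) (h : FreeGroup.IsReduced (l :: L))
    (hm : 4 * ((l :: L).map fun l => 2 * l.1 + 2).sum ≤ S.m) :
    ∃ f : ℕ → G, FreeGroup.lift f (FreeGroup.mk (l :: L)) ≠ 1 := by
  have := S.finiteF
  have hr : 2 ≤ S.r := by have := S.four_le_r; omega
  obtain ⟨h1, h2⟩ := lawVec_dom (F := F) hr l L h
  have h4 : 0 < lawS l ∧ lawS l ≤ 2 * l.1 + 2 := by unfold lawS; split_ifs <;> omega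
  obtain ⟨-, h3⟩ := lawStep_dom hr (b := X ^ lawS l) (by rw [natDegree_X_pow]; exact h4.1) h1
  rw [natDegree_X_pow] at h3
  set P := lawStep S.r (X ^ lawS l) (lawVec S.r (X : F[X]) (l :: L)) 0
  have h5 : 0 < P.natDegree := by
    rw [h3]
    have := Nat.mul_pos (show 0 < S.r by omega) h4.1
    omega
  have h6 : P.natDegree < S.q := by
    have e1 : S.r * lawS l ≤ S.r * (2 * l.1 + 2) := Nat.mul_le_mul_left _ h4.2
    have e2 := S.r_sq
    have e3 : S.m + 1 < S.r := Nat.lt_two_pow_self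
    nlinarith
  by_contra hne
  push Not at hne
  have h7 : P - 1 = 0 := by
    refine eq_zero_of_forall_eval_zero_of_natDegree_lt_card (P - 1) (fun x => ?_) ?_
    · have := S.law_word x l L
      rw [hne, map_one, one_mulVec] at this
      rw [eval_sub, eval_lawStep, eval_lawVec, eval_pow, eval_X, ← this]
      simp
    · rw [← Nat.cast_card, S.card, Nat.cast_lt, ← C_1, natDegree_sub_C]
      exact h6
  rw [sub_eq_zero.1 h7, natDegree_one] at h5
  exact lt_irrefl _ h5

end SzData

end Cfsg.Agent.H13
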