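import Cfsg.Agent.H13.TrlemM1

/-! S3105: the cyclic complement to a natural module in an abelian `O₂` has order at most `4`. -/

set_option autoImplicit false
set_option linter.unusedSectionVars false
set_option linter.unusedVariables false

namespace Cfsg.Agent.H8.Tr

open Cfsg Subgroup Cfsg.Agent.FT

universe u

variable {X : Type u} [Group X] [Finite X] {Q N D : Subgroup X} {σ ρ c z w : X}

theorem lemM_set (h : B Q σ ρ) (h1 : S1 Q σ) (hc : c ∈ Q) (hcσ : c * σ = σ * c)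
    (hg : ∀ x ∈ Q, x * σ = σ * x → x ∈ ⟪c⟫) (c4 : c ^ (4 : ℤ) ≠ 1) :
    lemM_S Q ⁅Q, ⟪σ⟫⁆ ρ c ∧ ⁅Q, ⟪σ⟫⁆ ⊓ C(⟪σ⟫) = ⊥ := by
  have nQ := h.nQ
  have PQ : ⁅Q, ⟪σ⟫⁆ ≤ Q := comm_le_left (nrm_of _)
  have dec : ∀ q ∈ Q, ∃ k : ℤ, ∃ p ∈ ⁅Q, ⟪σ⟫⁆, q = c ^ k * p := fun q hq => by
    obtain ⟨p, hp, y, hy, rfl⟩ := (coprime_cent_prod (nrm_of ⟪σ⟫) (h.cop le_rfl) (h.sol le_rfl)).mul q hq
    obtain ⟨k, rfl⟩ := mem_zpowers_iff.1 (hg y hy.1 (mem_cen.1 hy.2 σ (mem_zpowers σ)).symm)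
    exact ⟨k, p, hp, (mem_cen.1 (h1.2.2 hp) _ (zpow_mem hc k)).symm⟩
  have ab : ∀ a ∈ Q, ∀ b ∈ Q, a * b = b * a := fun a ha b hb => by
    obtain ⟨k, p, hp, rfl⟩ := dec a ha
    obtain ⟨j, q, hq, e⟩ := dec b hb
    have k1 : Commute b p := mem_cen.1 (h1.2.2 hp) _ hb
    have k2 : Commute c q := mem_cen.1 (h1.2.2 hq) _ hc
    have k3 : Commute c b := by rw [e]; exact ((Commute.refl c).zpow_right j).mul_right k2
    exact ((k3.zpow_left k).mul_left k1.symm).eq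
  have odd : ∀ x ∈ Q, ∀ n : ℤ, Odd n → x ^ n = 1 → x = 1 := fun x hx n hn e => by
    by_contra x1
    refine h.notQ ?_ x1 hx
    rw [← Nat.not_even_iff_odd, even_iff_two_dvd]
    intro h2
    exact (Int.not_even_iff_odd.2 hn) (even_iff_two_dvd.2
      ((Int.natCast_dvd_natCast.2 h2).trans (orderOf_dvd_iff_zpow_eq_one.2 e)))
  have ti : ⁅Q, ⟪σ⟫⁆ ⊓ C(⟪σ⟫) = ⊥ :=
    coprime_abel_cent_TI (nrm_of _) (h.cop le_rfl) ⟨⟨fun a b => Subtype.ext (ab _ a.2 _ b.2)⟩⟩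
  have cσ : c ∈ C(⟪σ⟫) := by rw [cen_zpowers]; exact mem_cen1.2 hcσ
  have r3 : ρ ^ 3 = 1 := by rw [← h.o3]; exact pow_orderOf_eq_one ρ
  refine ⟨⟨nQ, ab, odd, dec, hc, PQ, h1.1, h1.2.1, fun k hk => ?_, fun k g => ?_, c4, ?_,
    zpowers_le.1 (normsR (nrm_of _) (zpowers_le.2 h.nrm)), h.sr⟩, ti⟩
  · exact mem_bot.1 (ti ▸ ⟨hk, zpow_mem cσ k⟩)
  · haveI : (⟪c ^ (2 : ℤ)⟫).Normal := ⟨fun x hx g => by
      obtain ⟨i, rfl⟩ := mem_zpowers_iff.1 hx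
      obtain ⟨j, p, hp, e⟩ := dec _ (nQ.conj_mem c hc g)
      have k1 := ab _ (zpow_mem hc j) p (PQ hp)
      have e2 : g * c ^ (2 : ℤ) * g⁻¹ = (c ^ (2 : ℤ)) ^ j := by
        calc _ = (g * c * g⁻¹) * (g * c * g⁻¹) := by rw [zpow_two]; group
          _ = c ^ j * (p * c ^ j) * p := by rw [e]; group
          _ = (c ^ (2 : ℤ)) ^ j * (p * p) := by rw [← k1]; group
          _ = _ := by rw [h1.2.1 p hp, mul_one]
      rw [← conj_zpow, e2]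
      exact zpow_mem (zpow_mem (mem_zpowers _) j) i⟩
    have := h.top (K := C(⟪c ^ (2 : ℤ)⟫)) (fun q hq => mem_cen.2 fun y hy =>
      ab _ (zpowers_le.2 (zpow_mem hc 2) hy) _ hq) (by
        rw [cen_zpowers]; exact mem_cen1.2 ((show Commute c σ from hcσ).zpow_left 2).symm.eq)
    have hg : g ∈ C(⟪c ^ (2 : ℤ)⟫) := this ▸ mem_top g
    exact (mem_cen.1 hg _ (mem_zpowers_iff.2 ⟨k, by rw [← zpow_mul]⟩)).symm
  · have hn : ρ ∈ N(C(⟪σ⟫)) := zpowers_le.1 (norms_cent (zpowers_le.2 h.nrm))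
    obtain ⟨k, e⟩ := mem_zpowers_iff.1 (hg _ (nQ.conj_mem c hc ρ)
      (mem_cen.1 (conj_mem hn cσ) σ (mem_zpowers σ)).symm)
    have e3 : c ^ (k * k * k) = c := by
      calc _ = ρ * (ρ * (ρ * c * ρ⁻¹) * ρ⁻¹) * ρ⁻¹ := by
            rw [← e, ← conj_zpow, ← e, ← zpow_mul, ← conj_zpow, ← e, ← zpow_mul, mul_assoc]
        _ = ρ ^ 3 * c * (ρ ^ 3)⁻¹ := by rw [pow_succ, pow_two]; group
        _ = c := by rw [r3]; group
    have e4 := odd _ (zpow_mem hc (k - 1)) (k * (k + 1) + 1) ((Int.even_mul_succ_self k).add_one) (by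
      rw [← zpow_mul, show (k - 1) * (k * (k + 1) + 1) = k * k * k - 1 by ring, zpow_sub, e3]; group)
    rw [zpow_sub, zpow_one, mul_inv_eq_one] at e4
    rw [e4] at e
    exact mul_inv_eq_iff_eq_mul.1 e.symm

theorem lemM_wq [nQ : Q.Normal] (hN : Nm Q N) (W : Wt Q N ρ z w) (hc : c ∈ Q) : Wt Q N ρ z (w * c) := by
  have k : ∀ y, y ∈ Q ↔ QuotientGroup.mk' Q y = 1 := fun y => (QuotientGroup.eq_one_iff y).symm
  have c1 := (k c).1 hc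
  have cn : ∀ q ∈ Q, ∀ n ∈ N, n * q = q * n := fun q hq => mem_cen.1 (hN.cen ▸ hq : q ∈ C(N))
  have cw : ∀ g : X, ∀ q ∈ Q, ∀ n ∈ N, g * q * n = n * (g * q) → g * n = n * g := fun g q hq n hn e => by
    rw [mul_assoc, ← cn q hq n hn, ← mul_assoc, ← mul_assoc] at e
    exact mul_right_cancel e
  refine ⟨W.zN, W.z1, W.zρ, fun e => W.wQ ((mul_mem_cancel_right hc).1 e), ?_, ?_, ?_, fun n hn => ?_,
    fun n hn e1 e2 => W.cen n hn (cw _ _ hc n hn e1) (cw _ _ (nQ.conj_mem c hc ρ) n hn ?_), ?_, W.fpf⟩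
  · have := (k _).1 W.sq
    rw [k]; simpa only [map_mul, map_inv, c1, mul_one] using this
  · have := (k _).1 W.pr
    rw [k]; simpa only [map_mul, map_inv, c1, mul_one] using this
  · have := (k _).1 W.cm
    rw [k]; simpa only [map_mul, map_inv, c1, mul_one] using this
  · have := W.tv n hn
    rwa [show w * c * n * (w * c)⁻¹ = w * (c * n) * c⁻¹ * w⁻¹ by group, ← cn c hc n hn,
      show w * (n * c) * c⁻¹ = w * n by group]
  · rwa [show ρ * w * ρ⁻¹ * (ρ * c * ρ⁻¹) = ρ * (w * c) * ρ⁻¹ by group]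
  · obtain ⟨u, hu, h1, h2⟩ := W.ex
    exact ⟨u, hu, h1, by rw [mul_assoc, ← cn c hc u hu, ← mul_assoc, h2, mul_assoc]⟩

theorem lemM (exW : ∀ (Y : Type u) [Group Y] [Finite Y] (Q N : Subgroup Y) (σ ρ : Y), B Q σ ρ → Nm Q N → ∃ z w, Wt Q N ρ z w) (h : B Q σ ρ) (h1 : S1 Q σ) (hc : c ∈ Q) (hcσ : c * σ = σ * c) (hg : ∀ x ∈ Q, x * σ = σ * x → x ∈ ⟪c⟫) : c ^ 4 = 1 := by
  by_contra c4
  obtain ⟨s, ti⟩ := lemM_set h h1 hc hcσ hg (by rwa [zpow_ofNat])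
  have σP : σ ∈ N(⁅Q, ⟪σ⟫⁆) := zpowers_le.1 (norm_comm_right Q ⟪σ⟫)
  generalize ⁅Q, ⟪σ⟫⁆ = P at s ti σP
  have nQ := h.nQ
  have n1 := s.n1
  have cA : ∀ y ∈ ⟪c ^ (4 : ℤ)⟫, ∀ g : X, g * y = y * g := fun y hy g => by
    obtain ⟨i, rfl⟩ := mem_zpowers_iff.1 hy
    exact ((show Commute g (c ^ (4 : ℤ)) from s.cz 2 g).zpow_right i).eq
  haveI nA : (⟪c ^ (4 : ℤ)⟫).Normal := ⟨fun y hy g => by rw [cA y hy g, mul_inv_cancel_right]; exact hy⟩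
  have AQ : ⟪c ^ (4 : ℤ)⟫ ≤ Q := zpowers_le.2 (zpow_mem hc 4)
  have AP : ∀ y ∈ ⟪c ^ (4 : ℤ)⟫, y ∈ P → y = 1 := fun y hy hp => by
    obtain ⟨i, rfl⟩ := mem_zpowers_iff.1 hy
    rw [← zpow_mul] at hp ⊢
    exact s.ti _ hp
  set π := QuotientGroup.mk' ⟪c ^ (4 : ℤ)⟫ with hπ
  have hs : Function.Surjective π := QuotientGroup.mk'_surjective _
  have k1 : ∀ y, π y = 1 ↔ y ∈ ⟪c ^ (4 : ℤ)⟫ := fun y => QuotientGroup.eq_one_iff y
  have kH : ∀ (H : Subgroup X) (y : X), π y ∈ H.map π ↔ y ∈ ⟪c ^ (4 : ℤ)⟫ ⊔ H := fun H y => by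
    rw [← mem_comap, comap_map_eq, hπ, QuotientGroup.ker_mk', sup_comm]
  have kQ : ∀ y, π y ∈ Q.map π ↔ y ∈ Q := fun y => by rw [kH, sup_eq_right.2 AQ]
  have hq := h.quo _ AQ
  haveI nN : (P.map π).Normal := ⟨by
    rintro _ ⟨p, hp, rfl⟩ g
    obtain ⟨g, rfl⟩ := hs g
    rw [← map_mul, ← map_inv, ← map_mul, kH]
    exact s.inv4 (nQ.conj_mem _ (s.PQ hp) g) (by
      calc _ = g * (p * p) * g⁻¹ := by group
        _ = 1 := by rw [s.sqP p hp]; group)⟩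
  have hN : Nm (Q.map π) (P.map π) := by
    refine ⟨nN, ?_, ?_, map_mono s.PQ, ?_⟩
    · rw [← s.c8, ← range_subtype P, ← MonoidHom.range_comp, range_subtype]
      exact (Nat.card_congr (MonoidHom.ofInjective ((injective_iff_map_eq_one _).2 fun p e =>
        Subtype.ext (AP _ ((k1 _).1 e) p.2))).toEquiv).symm
    · rintro _ ⟨p, hp, rfl⟩
      rw [← map_mul, s.sqP p hp, map_one]
    · refine (hq.simp _ inferInstance ?_).resolve_right fun e => ?_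
      · rintro _ ⟨q, hq, rfl⟩
        refine mem_cen.2 ?_
        rintro _ ⟨p, hp, rfl⟩
        rw [← map_mul, ← map_mul, s.ab p (s.PQ hp) q hq]
      · have : P ≤ C(⟪σ⟫) := fun p hp => by
          have h2 := mem_cen.1 (e ▸ mem_top (π σ) : π σ ∈ C(P.map π)) _ (mem_map_of_mem π hp)
          have := AP _ ((k1 (σ * p * σ⁻¹ * p⁻¹)).1 (by
            simp only [map_mul, map_inv]; rw [← h2]; group)) (mul_mem (conj_mem σP hp) (inv_mem hp))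
          rw [cen_zpowers]
          exact mem_cen1.2 (mul_inv_eq_iff_eq_mul.1 (mul_inv_eq_one.1 this)).symm
        have h8 := s.c8
        rw [inf_eq_left.2 this] at ti
        rw [ti, card_bot] at h8
        omega
  obtain ⟨z, w, W⟩ := exW _ _ _ _ _ hq hN
  obtain ⟨w, rfl⟩ := hs w
  obtain ⟨v, vP, rfl⟩ := W.zN
  have kv : ∀ y, π y ∈ ⟪π v⟫ ↔ y ∈ ⟪c ^ (4 : ℤ)⟫ ⊔ ⟪v⟫ := fun y => by rw [← MonoidHom.map_zpowers, kH]
  have vQ : ⟪v⟫ ≤ Q := zpowers_le.2 (s.PQ vP)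
  have kP : ∀ p ∈ P, π p ∈ ⟪π v⟫ → p ∈ ⟪v⟫ := fun p hp e => by
    obtain ⟨j, q, hq, e⟩ := (s.mem vQ 4).1 ((kv p).1 e)
    have := s.ti (4 * j) (by rw [eq_mul_inv_of_mul_eq e.symm]; exact mul_mem hp (inv_mem (zpowers_le.2 vP hq)))
    rw [e, this, one_mul]; exact hq
  have r3 : ρ ^ 3 = 1 := by rw [← h.o3]; exact pow_orderOf_eq_one ρ
  have key : ∀ w : X, Wt (Q.map π) (P.map π) (π ρ) (π v) (π w) →
      w * (ρ * w * ρ⁻¹) * (ρ * (ρ * w * ρ⁻¹) * ρ⁻¹) ∈ ⟪c ^ (2 : ℤ)⟫ ⊔ P → False := fun w W pr => by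
    refine lemM_W.false s (v := v) (w := w) ⟨vP, fun e => W.z1 (by rw [e, map_one]), ?_, fun p hp e => ?_, rfl, rfl, ?_,
      fun e => W.wQ ((kQ _).2 e), (kQ _).1 (by rw [map_mul]; exact W.sq), pr,
      (kQ _).1 (by simpa only [map_mul, map_inv] using W.cm), fun p hp => ?_, fun p hp e1 e2 => ?_⟩
    · have := AP _ ((k1 (ρ * v * ρ⁻¹ * v⁻¹)).1 (by
        simp only [map_mul, map_inv]; rw [W.zρ]; group)) (mul_mem (conj_mem s.ρP vP) (inv_mem vP))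
      exact mul_inv_eq_iff_eq_mul.1 (mul_inv_eq_one.1 this)
    · refine kP p hp (W.fpf _ (mem_map_of_mem π hp) ?_)
      simpa only [map_mul, map_inv] using (kv _).2 (mem_sup_right e)
    · calc _ = ρ ^ 3 * w * (ρ ^ 3)⁻¹ := by rw [pow_succ, pow_two]; group
        _ = w := by rw [r3]; group
    · exact (kv _).1 (by simpa only [map_mul, map_inv] using W.tv _ (mem_map_of_mem π hp))
    · refine kP p hp (W.cen _ (mem_map_of_mem π hp) ?_ ?_)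
      · have := (k1 _).2 e1
        simp only [map_mul, map_inv] at this
        exact mul_inv_eq_iff_eq_mul.1 (mul_inv_eq_one.1 this)
      · have := (k1 _).2 e2
        rw [map_mul, map_mul, map_mul, map_inv, map_inv] at this
        simpa only [map_mul, map_inv] using mul_inv_eq_iff_eq_mul.1 (mul_inv_eq_one.1 this)
  by_cases pr : w * (ρ * w * ρ⁻¹) * (ρ * (ρ * w * ρ⁻¹) * ρ⁻¹) ∈ ⟪c ^ (2 : ℤ)⟫ ⊔ P
  · exact key w W pr
  have tQ : w * (ρ * w * ρ⁻¹) * (ρ * (ρ * w * ρ⁻¹) * ρ⁻¹) ∈ Q :=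
    (kQ _).1 (by simpa only [map_mul, map_inv] using W.pr)
  have cc : ∀ g : X, g⁻¹ * c * g⁻¹⁻¹ ∉ ⟪c ^ (2 : ℤ)⟫ ⊔ P := fun g e => s.c1 (by
    have := n1.conj_mem _ e g
    rwa [show g * (g⁻¹ * c * g⁻¹⁻¹) * g⁻¹ = c by group] at this)
  haveI := hq.nQ
  refine key (w * c) (by rw [map_mul]; exact lemM_wq hN W ((kQ c).2 hc)) ?_
  have e : ∀ g : X, ρ * (g * c) * ρ⁻¹ = (ρ * g * ρ⁻¹) * c := fun g => by
    calc _ = ρ * g * ρ⁻¹ * (ρ * c) * ρ⁻¹ := by group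
      _ = _ := by rw [s.ρc]; group
  rw [e, e]
  generalize ρ * w * ρ⁻¹ = b at pr tQ
  generalize ρ * b * ρ⁻¹ = a at pr tQ
  have := mul_mem (s.two tQ pr (nQ.conj_mem c hc _) (cc (b * a))) (s.two (nQ.conj_mem c hc _) (cc a) hc s.c1)
  convert this using 1
  group

end Cfsg.Agent.H8.Tr
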