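import Cfsg.Agent.H8.Tr0

/-! S3105: the cyclic complement to a natural module in an abelian `O₂` has order at most `4` (part 0). -/

set_option autoImplicit false
set_option linter.unusedSectionVars false
set_option linter.unusedVariables false

namespace Cfsg.Agent.H8.Tr

open Cfsg Subgroup Cfsg.Agent.FT

universe u

variable {X : Type u} [Group X] [Finite X] {Q N D P : Subgroup X} {σ ρ c z w v e a b : X}

theorem lemM_inv {H : Type*} [Group H] {D : Subgroup H} {g m : H} (h : g * m * g⁻¹ * m⁻¹ ∈ D)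
    (cg : ∀ d ∈ D, g * d = d * g) : g⁻¹ * m * g * m⁻¹ ∈ D := by
  have h1 := cg _ (inv_mem h)
  have : g⁻¹ * m * g * m⁻¹ = (g * m * g⁻¹ * m⁻¹)⁻¹ := by
    calc _ = g⁻¹ * ((g * m * g⁻¹ * m⁻¹)⁻¹ * g) := by group
      _ = _ := by rw [← h1]; group
  rw [this]; exact inv_mem h

theorem lemM_F {H : Type*} [Group H] {M D : Subgroup H} {w b a r : H} (hb : r * w * r⁻¹ = b)
    (ha : r * b * r⁻¹ = a) (hw' : r * a * r⁻¹ = w)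
    (hw : ∀ m ∈ M, w * m * w⁻¹ * m⁻¹ ∈ D) (hw2 : ∀ m ∈ M, b * m * b⁻¹ * m⁻¹ ∈ D)
    (cw : ∀ d ∈ D, w * d = d * w) (cb : ∀ d ∈ D, b * d = d * b)
    (hf : ∀ m ∈ M, r * m * r⁻¹ * m⁻¹ ∈ D → m ∈ D)
    (pr : w * b * a ∈ M) (cm : w * b * w⁻¹ * b⁻¹ ∈ M) :
    w * b * a ∈ D ∧ w * b * w⁻¹ * b⁻¹ ∈ D := by
  have h1 : w * b * a ∈ D := hf _ pr (by
    have e1 : r * (w * b * a) * r⁻¹ = w⁻¹ * (w * b * a) * w := by
      calc _ = (r * w * r⁻¹) * (r * b * r⁻¹) * (r * a * r⁻¹) := by group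
        _ = _ := by rw [hb, ha, hw']; group
    rw [e1]; exact lemM_inv (hw _ pr) cw)
  refine ⟨h1, hf _ cm ?_⟩
  have d1 := lemM_inv (hw _ cm) cw
  have d2 := lemM_inv (hw2 _ cm) cb
  have e2 := cb _ h1
  have e3 := cw _ d2
  have e1 : r * (w * b * w⁻¹ * b⁻¹) * r⁻¹ = w⁻¹ * b⁻¹ * w * b := by
    calc _ = (r * w * r⁻¹) * (r * b * r⁻¹) * (r * w * r⁻¹)⁻¹ * (r * b * r⁻¹)⁻¹ := by group
      _ = w⁻¹ * b⁻¹ * (b * (w * b * a)) * b⁻¹ * (w * b * a)⁻¹ * w * b := by rw [hb, ha]; group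
      _ = _ := by rw [e2]; group
  have e4 : w⁻¹ * b⁻¹ * w * b * (w * b * w⁻¹ * b⁻¹)⁻¹ =
      (b⁻¹ * (w * b * w⁻¹ * b⁻¹) * b * (w * b * w⁻¹ * b⁻¹)⁻¹) *
      (w⁻¹ * (w * b * w⁻¹ * b⁻¹) * w * (w * b * w⁻¹ * b⁻¹)⁻¹) := by
    calc _ = w⁻¹ * ((b⁻¹ * (w * b * w⁻¹ * b⁻¹) * b * (w * b * w⁻¹ * b⁻¹)⁻¹) * w) *
      (w⁻¹ * (w * b * w⁻¹ * b⁻¹) * w * (w * b * w⁻¹ * b⁻¹)⁻¹) := by group
      _ = _ := by rw [← e3]; group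
  rw [e1, e4]; exact mul_mem d2 d1

theorem lemM_cube {H : Type*} [Group H] {w b a r x α : H} (hb : r * w * r⁻¹ = b)
    (ha : r * b * r⁻¹ = a) (rx : r * x = x * r) (rα : r * α = α * r) (wα : w * α = α * w)
    (hx : w * x * w⁻¹ = α * x) (ht : w * b * a * x = x * (w * b * a)) : α ^ (3 : ℤ) = 1 := by
  have step : ∀ g : H, g * α = α * g → g * x * g⁻¹ = α * x →
      (r * g * r⁻¹) * α = α * (r * g * r⁻¹) ∧ (r * g * r⁻¹) * x * (r * g * r⁻¹)⁻¹ = α * x := by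
    intro g h1 h2
    have k1 : Commute r α := rα
    have k2 : Commute g α := h1
    refine ⟨((k1.mul_left k2).mul_left k1.inv_left).eq, ?_⟩
    calc _ = r * g * r⁻¹ * (x * r) * g⁻¹ * r⁻¹ := by group
      _ = r * (g * x * g⁻¹) * r⁻¹ := by rw [← rx]; group
      _ = (r * α) * x * r⁻¹ := by rw [h2]; group
      _ = α * (r * x) * r⁻¹ := by rw [rα]; group
      _ = _ := by rw [rx]; group
  obtain ⟨b1, b2⟩ := step w wα hx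
  rw [hb] at b1 b2
  obtain ⟨a1, a2⟩ := step b b1 b2
  rw [ha] at a1 a2
  have : α ^ (3 : ℤ) * x = x := by
    symm
    calc x = (w * b * a * x) * (w * b * a)⁻¹ := by rw [ht]; group
      _ = w * b * (a * x * a⁻¹) * b⁻¹ * w⁻¹ := by group
      _ = w * (b * α) * x * b⁻¹ * w⁻¹ := by rw [a2]; group
      _ = (w * α) * (b * x * b⁻¹) * w⁻¹ := by rw [b1]; group
      _ = α * (w * α) * x * w⁻¹ := by rw [b2, wα, mul_assoc α w, ← mul_assoc w, wα]; group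
      _ = α * α * (w * x * w⁻¹) := by rw [wα]; group
      _ = _ := by rw [hx]; simp only [zpow_ofNat, pow_succ, pow_zero, one_mul, mul_assoc]
  exact mul_eq_right.1 this

structure lemM_S (Q P : Subgroup X) (ρ c : X) : Prop where
  nQ : Q.Normal
  ab : ∀ a ∈ Q, ∀ b ∈ Q, a * b = b * a
  odd : ∀ x ∈ Q, ∀ n : ℤ, Odd n → x ^ n = 1 → x = 1
  dec : ∀ q ∈ Q, ∃ k : ℤ, ∃ p ∈ P, q = c ^ k * p
  cQ : c ∈ Q
  PQ : P ≤ Q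
  c8 : #P = 8
  sqP : ∀ p ∈ P, p * p = 1
  ti : ∀ k : ℤ, c ^ k ∈ P → c ^ k = 1
  cz : ∀ (k : ℤ) (g : X), g * c ^ (2 * k) = c ^ (2 * k) * g
  c4 : c ^ (4 : ℤ) ≠ 1
  ρc : ρ * c = c * ρ
  ρP : ρ ∈ N(P)
  sr : GO.SR 4 (⊤ : Subgroup X)

namespace lemM_S

variable (h : lemM_S Q P ρ c)
include h

theorem mem {H : Subgroup X} (hH : H ≤ Q) (n : ℤ) {x : X} :
    x ∈ ⟪c ^ n⟫ ⊔ H ↔ ∃ k : ℤ, ∃ p ∈ H, x = c ^ (n * k) * p := by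
  rw [mem_sup_norm' (zpowers_le.2 (mem_nrm.2 fun y hy => by
    rw [h.ab _ (zpow_mem h.cQ n) y (hH hy), mul_inv_cancel_right]; exact hy))]
  constructor
  · rintro ⟨_, ⟨k, rfl⟩, p, hp, rfl⟩
    exact ⟨k, p, hp, by simp only [zpow_mul]⟩
  · rintro ⟨k, p, hp, rfl⟩
    exact ⟨_, ⟨k, by simp only [zpow_mul]⟩, p, hp, rfl⟩

theorem sq (k : ℤ) {p : X} (hp : p ∈ P) : c ^ k * p * (c ^ k * p) = c ^ (2 * k) := by
  have h1 := h.ab _ (zpow_mem h.cQ k) p (h.PQ hp)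
  calc _ = c ^ k * (p * c ^ k) * p := by group
    _ = c ^ (2 * k) * (p * p) := by rw [← h1]; group
    _ = _ := by rw [h.sqP p hp, mul_one]

theorem n4 {k : ℤ} (hk : Odd k) : c ^ (4 * k) ≠ 1 := fun e =>
  h.c4 (h.odd _ (zpow_mem h.cQ 4) k hk (by rw [← zpow_mul, e]))

theorem inv4 {x : X} (hx : x ∈ Q) (h2 : x * x = 1) : x ∈ ⟪c ^ (4 : ℤ)⟫ ⊔ P := by
  obtain ⟨k, p, hp, rfl⟩ := h.dec x hx
  rw [h.sq k hp] at h2
  rcases Int.even_or_odd k with ⟨j, rfl⟩ | hk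
  · rcases Int.even_or_odd j with ⟨i, rfl⟩ | hj
    · exact (h.mem h.PQ 4).2 ⟨i, p, hp, by congr 2; ring⟩
    · exact (h.n4 hj (by rw [← h2]; congr 1; ring)).elim
  · exact (h.n4 hk (by rw [show 4 * k = 2 * k * 2 by ring, zpow_mul, h2, one_zpow])).elim

theorem le1 : ⟪c ^ (2 : ℤ)⟫ ⊔ P ≤ Q := sup_le (zpowers_le.2 (zpow_mem h.cQ 2)) h.PQ

theorem n1 : (⟪c ^ (2 : ℤ)⟫ ⊔ P).Normal := ⟨fun x hx g => by
  obtain ⟨k, p, hp, rfl⟩ := (h.mem h.PQ 2).1 hx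
  have h1 := h.inv4 (h.nQ.conj_mem _ (h.PQ hp) g) (by
    calc _ = g * (p * p) * g⁻¹ := by group
      _ = 1 := by rw [h.sqP p hp]; group)
  obtain ⟨j, q, hq, e⟩ := (h.mem h.PQ 4).1 h1
  refine (h.mem h.PQ 2).2 ⟨k + 2 * j, q, hq, ?_⟩
  calc _ = (g * c ^ (2 * k)) * p * g⁻¹ := by group
    _ = c ^ (2 * k) * (g * p * g⁻¹) := by rw [h.cz]; group
    _ = _ := by rw [e]; group⟩

theorem alt {x : X} (hx : x ∈ Q) (h1 : x ∉ ⟪c ^ (2 : ℤ)⟫ ⊔ P) :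
    ∃ k : ℤ, ∃ p ∈ P, x = c ^ (2 * k + 1) * p := by
  obtain ⟨k, p, hp, rfl⟩ := h.dec x hx
  rcases Int.even_or_odd' k with ⟨j, rfl | rfl⟩
  · exact (h1 ((h.mem h.PQ 2).2 ⟨j, p, hp, rfl⟩)).elim
  · exact ⟨j, p, hp, rfl⟩

theorem two {x y : X} (hx : x ∈ Q) (h1 : x ∉ ⟪c ^ (2 : ℤ)⟫ ⊔ P) (hy : y ∈ Q) (h2 : y ∉ ⟪c ^ (2 : ℤ)⟫ ⊔ P) :
    x * y ∈ ⟪c ^ (2 : ℤ)⟫ ⊔ P := by
  obtain ⟨k, p, hp, rfl⟩ := h.alt hx h1
  obtain ⟨j, q, hq, rfl⟩ := h.alt hy h2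
  refine (h.mem h.PQ 2).2 ⟨k + j + 1, p * q, mul_mem hp hq, ?_⟩
  have h1 := h.ab _ (zpow_mem h.cQ (2 * j + 1)) p (h.PQ hp)
  calc _ = c ^ (2 * k + 1) * (p * c ^ (2 * j + 1)) * q := by group
    _ = _ := by rw [← h1]; group

theorem c1 : c ∉ ⟪c ^ (2 : ℤ)⟫ ⊔ P := fun e => by
  obtain ⟨k, p, hp, e⟩ := (h.mem h.PQ 2).1 e
  have h1 : c ^ (1 - 2 * k) = p := by
    calc _ = (c ^ (2 * k))⁻¹ * c := by group
      _ = (c ^ (2 * k))⁻¹ * (c ^ (2 * k) * p) := by rw [← e]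
      _ = _ := by group
  have h2 := h.odd c h.cQ _ ⟨-k, by ring⟩ (h.ti _ (h1 ▸ hp))
  exact h.c4 (by rw [h2, one_zpow])

theorem card1 : #(⟪c ^ (2 : ℤ)⟫ ⊔ P) = 16 * #⟪c ^ (4 : ℤ)⟫ := by
  have h1 : #⟪c ^ (2 : ℤ)⟫ = 2 * #⟪c ^ (4 : ℤ)⟫ := by
    have h2 : c ^ (4 : ℤ) = (c ^ (2 : ℤ)) ^ 2 := by group
    rw [← H3.card_sup_zpowers Nat.prime_two (N := ⟪c ^ (4 : ℤ)⟫) (x := c ^ (2 : ℤ)) (mem_nrm.2 fun y hy => by
      have := h.cz 1 y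
      rw [mul_one] at this
      rw [← this, mul_inv_cancel_right]; exact hy) (fun ⟨k, e⟩ => by
      have h3 : (c ^ (2 : ℤ)) ^ (2 * k - 1) = 1 := by
        calc _ = (c ^ (4 : ℤ)) ^ k * (c ^ (2 : ℤ))⁻¹ := by group
          _ = 1 := by rw [show (c ^ (4 : ℤ)) ^ k = c ^ (2 : ℤ) from e]; group
      have h4 := h.odd _ (zpow_mem h.cQ 2) _ ⟨k - 1, by ring⟩ h3
      exact h.c4 (by rw [h2, h4, one_pow])) (h2 ▸ mem_zpowers _),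
      sup_eq_right.2 (zpowers_le.2 (h2 ▸ pow_mem (mem_zpowers _) 2))]
  rw [card_sup_of_inf (A := ⟪c ^ (2 : ℤ)⟫) (B := P) (le_nrm_iff.2 fun g hg y hy => by
    rw [h.ab g (h.PQ hg) y (zpowers_le.2 (zpow_mem h.cQ 2) hy), mul_inv_cancel_right]; exact hy)
    (eq_bot_iff.2 fun y hy' => by
      obtain ⟨⟨k, e⟩, hy⟩ := hy'
      have e' : c ^ (2 * k) = y := by rw [zpow_mul]; exact e
      rw [mem_bot, ← e']; exact h.ti _ (e' ▸ hy)), h1, h.c8]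
  ring

end lemM_S

end Cfsg.Agent.H8.Tr
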