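import Cfsg.Agent.H13.TrlemM0

/-! S3105: the cyclic complement to a natural module in an abelian `O₂` has order at most `4` (part 1). -/

set_option autoImplicit false
set_option linter.unusedSectionVars false
set_option linter.unusedVariables false

namespace Cfsg.Agent.H8.Tr

open Cfsg Subgroup Cfsg.Agent.FT

universe u

variable {X : Type u} [Group X] [Finite X] {Q N D P : Subgroup X} {σ ρ c z w v e a b : X}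

theorem lemM_sq {H : Type*} [Group H] {w b : H} (h : w * (w * b * w⁻¹ * b⁻¹) = (w * b * w⁻¹ * b⁻¹) * w) :
    (w * w) * b * (w * w)⁻¹ * b⁻¹ = (w * b * w⁻¹ * b⁻¹) * (w * b * w⁻¹ * b⁻¹) := by
  calc _ = (w * (w * b * w⁻¹ * b⁻¹)) * b * w⁻¹ * b⁻¹ := by group
    _ = _ := by rw [h]; group

structure lemM_W (Q P : Subgroup X) (ρ c v w b a : X) : Prop where
  vP : v ∈ P
  v1 : v ≠ 1
  ρv : ρ * v = v * ρ
  fpf : ∀ p ∈ P, ρ * p * ρ⁻¹ * p⁻¹ ∈ ⟪v⟫ → p ∈ ⟪v⟫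
  hb : ρ * w * ρ⁻¹ = b
  ha : ρ * b * ρ⁻¹ = a
  hw : ρ * a * ρ⁻¹ = w
  wQ : w ∉ Q
  sq : w * w ∈ Q
  pr : w * b * a ∈ ⟪c ^ (2 : ℤ)⟫ ⊔ P
  cm : w * b * w⁻¹ * b⁻¹ ∈ Q
  tv : ∀ p ∈ P, w * p * w⁻¹ * p⁻¹ ∈ ⟪c ^ (4 : ℤ)⟫ ⊔ ⟪v⟫
  cen : ∀ p ∈ P, w * p * w⁻¹ * p⁻¹ ∈ ⟪c ^ (4 : ℤ)⟫ → b * p * b⁻¹ * p⁻¹ ∈ ⟪c ^ (4 : ℤ)⟫ → p ∈ ⟪v⟫

namespace lemM_W

variable (h : lemM_S Q P ρ c) (k : lemM_W Q P ρ c v w b a)
include h k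

theorem vQ : ⟪v⟫ ≤ Q := zpowers_le.2 (h.PQ k.vP)

theorem leQ (n : ℤ) : ⟪c ^ n⟫ ⊔ ⟪v⟫ ≤ Q := sup_le (zpowers_le.2 (zpow_mem h.cQ n)) (k.vQ h)

omit k in
theorem com {g : X} {n : ℤ} (h1 : g * c ^ n = c ^ n * g) (h2 : g * v = v * g) :
    ∀ d ∈ ⟪c ^ n⟫ ⊔ ⟪v⟫, g * d = d * g := fun d hd =>
  (mem_cen1.1 ((sup_le (zpowers_le.2 (mem_cen1.2 h1.symm)) (zpowers_le.2 (mem_cen1.2 h2.symm)) :
    _ ≤ C[g]) hd)).symm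

theorem wv : w * v = v * w := by
  obtain ⟨j, p, hp, e⟩ := (h.mem (k.vQ h) 4).1 (k.tv v k.vP)
  have cz : ∀ g : X, g * c ^ (4 * j) = c ^ (4 * j) * g := fun g => by
    have := h.cz (2 * j) g
    rwa [show 2 * (2 * j) = 4 * j by ring] at this
  rcases (zp2 (h.sqP v k.vP)).1 hp with rfl | rfl
  · have e1 : w * v * w⁻¹ = c ^ (4 * j) * v := by rw [← mul_one (c ^ (4 * j)), ← e]; group
    have := h.odd _ (zpow_mem h.cQ _) 3 (by decide)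
      (lemM_cube k.hb k.ha k.ρv (cz _) (cz _) e1 (h.ab _ (h.le1 k.pr) _ (h.PQ k.vP)))
    rw [this, one_mul] at e1
    exact mul_inv_eq_iff_eq_mul.1 e1
  · exfalso
    have e1 : p = c ^ (4 * j) := by
      calc p = w⁻¹ * (w * p * w⁻¹ * p⁻¹) * p * w := by group
        _ = (w⁻¹ * c ^ (4 * j)) * (p * p) * w := by rw [e]; group
        _ = _ := by rw [cz, h.sqP p k.vP]; group
    exact k.v1 (e1.trans (h.ti _ (e1 ▸ k.vP)))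

omit h in
theorem bc {x : X} (h1 : w * x = x * w) (h2 : ρ * x = x * ρ) : b * x = x * b := by
  have k1 : Commute w x := h1
  have k2 : Commute ρ x := h2
  rw [← k.hb]
  exact ((k2.mul_left k1).mul_left k2.inv_left).eq

theorem tvb : ∀ p ∈ P, b * p * b⁻¹ * p⁻¹ ∈ ⟪c ^ (4 : ℤ)⟫ ⊔ ⟪v⟫ := fun p hp => by
  have h1 := k.tv _ (conj_mem (inv_mem h.ρP) hp)
  have h2 := com h (h.cz 2 ρ) k.ρv _ h1
  have : b * p * b⁻¹ * p⁻¹ = w * (ρ⁻¹ * p * ρ⁻¹⁻¹) * w⁻¹ * (ρ⁻¹ * p * ρ⁻¹⁻¹)⁻¹ := by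
    calc _ = (ρ * (w * (ρ⁻¹ * p * ρ⁻¹⁻¹) * w⁻¹ * (ρ⁻¹ * p * ρ⁻¹⁻¹)⁻¹)) * ρ⁻¹ := by rw [← k.hb]; group
      _ = _ := by rw [h2]; group
  rw [this]; exact h1

omit k in
theorem cmm {g p : X} {n : ℤ} (j : ℤ) (h1 : g * c ^ n = c ^ n * g) (hp : p ∈ P) :
    g * (c ^ (n * j) * p) * g⁻¹ * (c ^ (n * j) * p)⁻¹ = g * p * g⁻¹ * p⁻¹ := by
  have k1 : Commute g (c ^ n) := h1
  have k2 := (k1.zpow_right j).eq
  rw [← zpow_mul] at k2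
  have k3 := h.ab _ (zpow_mem h.cQ (n * j)) _ (mul_mem (h.nQ.conj_mem _ (h.PQ hp) g) (inv_mem (h.PQ hp)))
  calc _ = (g * c ^ (n * j)) * p * g⁻¹ * (c ^ (n * j) * p)⁻¹ := by group
    _ = (c ^ (n * j) * (g * p * g⁻¹ * p⁻¹)) * (c ^ (n * j))⁻¹ := by rw [k2]; group
    _ = _ := by rw [k3]; group

theorem F {n : ℤ} (hn : n ∣ 2) (h1 : w * c ^ n = c ^ n * w) (cm : w * b * w⁻¹ * b⁻¹ ∈ ⟪c ^ n⟫ ⊔ P) :
    w * b * a ∈ ⟪c ^ n⟫ ⊔ ⟪v⟫ ∧ w * b * w⁻¹ * b⁻¹ ∈ ⟪c ^ n⟫ ⊔ ⟪v⟫ := by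
  obtain ⟨m, hm⟩ := hn
  have r1 : ρ * c ^ n = c ^ n * ρ := ((show Commute ρ c from h.ρc).zpow_right n).eq
  have b1 := k.bc h1 r1
  have l4 : ⟪c ^ (4 : ℤ)⟫ ⊔ ⟪v⟫ ≤ ⟪c ^ n⟫ ⊔ ⟪v⟫ :=
    sup_le_sup_right (zpowers_le.2 (mem_zpowers_iff.2 ⟨m * 2, by rw [← zpow_mul, ← mul_assoc, ← hm]; rfl⟩)) _
  have l2 : ⟪c ^ (2 : ℤ)⟫ ⊔ P ≤ ⟪c ^ n⟫ ⊔ P :=
    sup_le_sup_right (zpowers_le.2 (mem_zpowers_iff.2 ⟨m, by rw [← zpow_mul, ← hm]⟩)) _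
  refine lemM_F (M := ⟪c ^ n⟫ ⊔ P) k.hb k.ha k.hw (fun x hx => ?_) (fun x hx => ?_) (com h h1 (k.wv h))
    (com h b1 (k.bc (k.wv h) k.ρv)) (fun x hx e => ?_) (l2 k.pr) cm
  · obtain ⟨j, p, hp, rfl⟩ := (h.mem h.PQ n).1 hx
    rw [cmm h j h1 hp]; exact l4 (k.tv p hp)
  · obtain ⟨j, p, hp, rfl⟩ := (h.mem h.PQ n).1 hx
    rw [cmm h j b1 hp]; exact l4 (k.tvb h p hp)
  · obtain ⟨j, p, hp, rfl⟩ := (h.mem h.PQ n).1 hx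
    rw [cmm h j r1 hp] at e
    obtain ⟨i, q, hq, e⟩ := (h.mem (k.vQ h) n).1 e
    have hP : ρ * p * ρ⁻¹ * p⁻¹ ∈ P := mul_mem (conj_mem h.ρP hp) (inv_mem hp)
    have := h.ti (n * i) (by
      rw [eq_mul_inv_of_mul_eq e.symm]; exact mul_mem hP (inv_mem (zpowers_le.2 k.vP hq)))
    rw [this, one_mul] at e
    exact (h.mem (k.vQ h) n).2 ⟨j, p, k.fpf p hp (e ▸ hq), rfl⟩

theorem par : w * w ∈ ⟪c ^ (2 : ℤ)⟫ ⊔ P ↔ w * b * w⁻¹ * b⁻¹ ∈ ⟪c ^ (2 : ℤ)⟫ ⊔ P := by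
  have n1 := h.n1
  have e2 : b * b = ρ * (w * w) * ρ⁻¹ := by rw [← k.hb]; group
  have e3 : a * a = ρ * (b * b) * ρ⁻¹ := by rw [← k.ha]; group
  have e : (w * b * w⁻¹ * b⁻¹) * ((b * (w * w) * b⁻¹) * (b * b)) * (a * a) ∈ ⟪c ^ (2 : ℤ)⟫ ⊔ P := by
    have := mul_mem k.pr (n1.conj_mem _ k.pr a⁻¹)
    convert this using 1
    group
  have i1 : ∀ g x : X, g * x * g⁻¹ ∈ ⟪c ^ (2 : ℤ)⟫ ⊔ P → x ∈ ⟪c ^ (2 : ℤ)⟫ ⊔ P := fun g x hx => by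
    have := n1.conj_mem _ hx g⁻¹
    convert this using 1
    group
  constructor
  · intro hs
    have s2 : b * b ∈ ⟪c ^ (2 : ℤ)⟫ ⊔ P := e2 ▸ n1.conj_mem _ hs _
    have s3 : a * a ∈ ⟪c ^ (2 : ℤ)⟫ ⊔ P := e3 ▸ n1.conj_mem _ s2 _
    exact (mul_mem_cancel_right (mul_mem (n1.conj_mem _ hs b) s2)).1 ((mul_mem_cancel_right s3).1 e)
  · intro hκ
    by_contra hs
    have s2 : b * b ∉ ⟪c ^ (2 : ℤ)⟫ ⊔ P := fun e => hs (i1 ρ _ (e2 ▸ e))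
    have s12 := h.two (h.nQ.conj_mem _ k.sq b) (fun e => hs (i1 _ _ e)) (e2 ▸ h.nQ.conj_mem _ k.sq ρ) s2
    exact s2 (i1 ρ _ (e3 ▸ (mul_mem_cancel_left (mul_mem hκ s12)).1 e))

theorem sqD (n : ℤ) {x : X} (hx : x ∈ ⟪c ^ n⟫ ⊔ ⟪v⟫) : x * x ∈ ⟪c ^ (2 * n)⟫ := by
  obtain ⟨j, p, hp, rfl⟩ := (h.mem (k.vQ h) n).1 hx
  rw [h.sq _ (zpowers_le.2 k.vP hp)]
  exact ⟨j, by simp only [← zpow_mul, mul_assoc]⟩

theorem caseB : w * w ∈ ⟪c ^ (2 : ℤ)⟫ ⊔ P := by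
  by_contra hs
  obtain ⟨j, p, hp, e⟩ := h.alt k.sq hs
  have pQ := h.PQ hp
  have wc : w * c = c * w := by
    have e1 : w * c * w⁻¹ = (w * p * w⁻¹ * p⁻¹)⁻¹ * c := by
      have k1 := h.ab c h.cQ p pQ
      have k2 := h.ab c h.cQ _ (inv_mem (h.nQ.conj_mem _ pQ w))
      calc _ = w * (c ^ (2 * j))⁻¹ * (c ^ (2 * j + 1) * p) * p⁻¹ * w⁻¹ := by group
        _ = (w * c ^ (2 * -j)) * (w * w) * p⁻¹ * w⁻¹ := by rw [← e]; group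
        _ = c ^ (2 * -j) * (w * w) * (w * p * w⁻¹)⁻¹ := by rw [h.cz]; group
        _ = (c * p) * (w * p * w⁻¹)⁻¹ := by rw [e]; group
        _ = p * (c * (w * p * w⁻¹)⁻¹) := by rw [k1]; group
        _ = _ := by rw [k2]; group
    have hα := inv_mem (k.tv p hp)
    have := h.odd _ (k.leQ h 4 hα) 3 (by decide) (lemM_cube k.hb k.ha h.ρc (com h (h.cz 2 ρ) k.ρv _ hα)
      (com h (h.cz 2 w) (k.wv h) _ hα) e1 (h.ab _ (h.le1 k.pr) _ h.cQ))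
    rw [this, one_mul] at e1
    exact mul_inv_eq_iff_eq_mul.1 e1
  have wc' : w * c ^ (1 : ℤ) = c ^ (1 : ℤ) * w := by rw [zpow_one, wc]
  obtain ⟨i, q, hq, eκ⟩ := h.alt k.cm (fun e => hs ((k.par h).2 e))
  obtain ⟨-, hκ⟩ := k.F h (one_dvd _) wc' ((h.mem h.PQ 1).2 ⟨_, q, hq, by rw [eκ, one_mul]⟩)
  have e2 := lemM_sq (com h wc' (k.wv h) _ hκ)
  have bc' : b⁻¹ * c ^ (1 : ℤ) = c ^ (1 : ℤ) * b⁻¹ := by
    rw [zpow_one]; exact (show Commute b c from k.bc wc h.ρc).inv_left.eq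
  have e3 := cmm h (2 * j + 1) (k.bc wc' (by rw [zpow_one, h.ρc])) hp
  rw [one_mul, ← e] at e3
  rw [eκ, h.sq _ hq] at e2
  have e4 : (b * p * b⁻¹ * p⁻¹) * (b * p * b⁻¹ * p⁻¹) = 1 := by
    have k3 := h.ab _ (inv_mem pQ) _ (h.nQ.conj_mem _ pQ b)
    calc _ = (b * p * b⁻¹) * (p⁻¹ * (b * p * b⁻¹)) * p⁻¹ := by group
      _ = b * (p * p) * b⁻¹ * (p * p)⁻¹ := by rw [k3]; group
      _ = 1 := by rw [h.sqP p hp]; group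
  refine h.n4 (k := 2 * i + 1) ⟨i, rfl⟩ ?_
  generalize w * w = s at e2 e3
  calc _ = c ^ (2 * (2 * i + 1)) * c ^ (2 * (2 * i + 1)) := by group
    _ = ((b * s * b⁻¹ * s⁻¹) * (b * s * b⁻¹ * s⁻¹))⁻¹ := by rw [← e2]; group
    _ = 1 := by rw [e3, e4, inv_one]

theorem sqs : w * w ∈ ⟪c ^ (4 : ℤ)⟫ ⊔ ⟪v⟫ ∧ w * b * w⁻¹ * b⁻¹ ∈ ⟪c ^ (4 : ℤ)⟫ ⊔ ⟪v⟫ := by
  have hs := k.caseB h
  have c2 : ∀ g : X, g * c ^ (2 : ℤ) = c ^ (2 : ℤ) * g := fun g => h.cz 1 g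
  obtain ⟨ht, hκ⟩ := k.F h dvd_rfl (c2 w) ((k.par h).1 hs)
  have cw := com h (c2 w) (k.wv h)
  have cb := com h (c2 b) (k.bc (k.wv h) k.ρv)
  have cρ := com h (c2 ρ) k.ρv
  obtain ⟨j, p, hp, e⟩ := (h.mem h.PQ 2).1 hs
  have e2 := lemM_sq (cw _ hκ)
  have e3 := cmm h j (c2 b) hp
  have e4 := cmm h j (c2 w) hp
  rw [← e] at e3 e4
  have e5 : b * p * b⁻¹ * p⁻¹ = ((w * b * w⁻¹ * b⁻¹) * (w * b * w⁻¹ * b⁻¹))⁻¹ := by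
    rw [← e2, ← e3]; simp only [mul_inv_rev, inv_inv, mul_assoc]
  have pv : p ∈ ⟪v⟫ := k.cen p hp (by rw [← e4, show w * (w * w) * w⁻¹ * (w * w)⁻¹ = 1 by group]; exact one_mem _)
    (by rw [e5]; exact inv_mem (k.sqD h 2 hκ))
  have sD : w * w ∈ ⟪c ^ (2 : ℤ)⟫ ⊔ ⟪v⟫ := (h.mem (k.vQ h) 2).2 ⟨j, p, pv, e⟩
  have κ2 : (w * b * w⁻¹ * b⁻¹) * (w * b * w⁻¹ * b⁻¹) = 1 := by
    rw [← e2, ← cb _ sD]; group
  have hκ4 : w * b * w⁻¹ * b⁻¹ ∈ ⟪c ^ (4 : ℤ)⟫ ⊔ ⟪v⟫ := by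
    obtain ⟨i, q, hq, eκ⟩ := (h.mem (k.vQ h) 2).1 hκ
    rw [eκ, h.sq _ (zpowers_le.2 k.vP hq)] at κ2
    rcases Int.even_or_odd i with ⟨l, rfl⟩ | hi
    · exact (h.mem (k.vQ h) 4).2 ⟨l, q, hq, by rw [eκ]; congr 2; ring⟩
    · exact (h.n4 hi (by rw [← κ2]; congr 1; ring)).elim
  refine ⟨?_, hκ4⟩
  have e6 : b * b = w * w := by
    calc _ = (ρ * (w * w)) * ρ⁻¹ := by rw [← k.hb]; group
      _ = _ := by rw [cρ _ sD]; group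
  have e7 : a * a = w * w := by
    calc _ = (ρ * (b * b)) * ρ⁻¹ := by rw [← k.ha]; group
      _ = _ := by rw [e6, cρ _ sD]; group
  have ta : a⁻¹ * (w * b * a) = (w * b * a) * a⁻¹ := by
    have k1 : Commute w (w * b * a) := cw _ ht
    have k2 : Commute b (w * b * a) := cb _ ht
    have := ((Commute.refl (w * b * a)).inv_left.mul_left k1).mul_left k2
    rw [show (w * b * a)⁻¹ * w * b = a⁻¹ * (b⁻¹ * w⁻¹ * w * b) by group,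
      show b⁻¹ * w⁻¹ * w * b = 1 by group, mul_one] at this
    exact this.eq
  have e8 : w * w = (w * b * w⁻¹ * b⁻¹)⁻¹ * ((w * b * a) * (w * b * a)) * ((w * w) * (w * w))⁻¹ := by
    have k1 := cb _ sD
    calc _ = (w * b * w⁻¹ * b⁻¹)⁻¹ * (w * b * w⁻¹ * b⁻¹ * (w * w) * (w * w) * (w * w)) * ((w * w) * (w * w))⁻¹ := by
          generalize w * b * w⁻¹ * b⁻¹ = κ; generalize w * w = s; group
      _ = (w * b * w⁻¹ * b⁻¹)⁻¹ * (w * b * w⁻¹ * b⁻¹ * ((w * w) * b) * b * (a * a)) * ((w * w) * (w * w))⁻¹ := by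
          rw [e7, mul_assoc (w * b * w⁻¹ * b⁻¹) (w * w * b) b, mul_assoc (w * w) b b, e6]; simp only [mul_assoc]
      _ = (w * b * w⁻¹ * b⁻¹)⁻¹ * ((w * b * a) * (a⁻¹ * (w * b * a)) * a) * ((w * w) * (w * w))⁻¹ := by
          rw [← k1]; simp only [mul_assoc, inv_mul_cancel_left, mul_inv_cancel_left]
      _ = _ := by rw [ta]; simp only [mul_assoc, inv_mul_cancel_left, mul_inv_cancel_left, inv_mul_cancel, mul_one]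
  rw [e8]
  exact mul_mem (mul_mem (inv_mem hκ4) (mem_sup_left (k.sqD h 2 ht))) (inv_mem (mem_sup_left (k.sqD h 2 sD)))

theorem false : False := by
  obtain ⟨s1, hκ⟩ := k.sqs h
  have n1 := h.n1
  have nQ := h.nQ
  have c4 : ∀ g : X, g * c ^ (4 : ℤ) = c ^ (4 : ℤ) * g := fun g => h.cz 2 g
  have c2 : ∀ g : X, g * c ^ (2 : ℤ) = c ^ (2 : ℤ) * g := fun g => h.cz 1 g
  have cw := com h (c4 w) (k.wv h)
  have cb := com h (c4 b) (k.bc (k.wv h) k.ρv)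
  have s2 : b * b ∈ ⟪c ^ (4 : ℤ)⟫ ⊔ ⟪v⟫ := by
    have : b * b = w * w := by
      calc _ = (ρ * (w * w)) * ρ⁻¹ := by rw [← k.hb]; group
        _ = _ := by rw [com h (c4 ρ) k.ρv _ s1]; group
    rwa [this]
  have l1 : ⟪c ^ (4 : ℤ)⟫ ⊔ ⟪v⟫ ≤ ⟪c ^ (2 : ℤ)⟫ ⊔ P :=
    sup_le_sup (zpowers_le.2 (mem_zpowers_iff.2 ⟨2, by rw [← zpow_mul]; rfl⟩)) (zpowers_le.2 k.vP)
  have wN : w ∈ N(⟪c ^ (2 : ℤ)⟫ ⊔ P) := nrm_of ⊤ trivial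
  have m1 := fun y => sup2 (y := y) wN (l1 s1)
  have bN : b ∈ N((⟪c ^ (2 : ℤ)⟫ ⊔ P) ⊔ ⟪w⟫) := mem_nrm.2 fun y hy => by
    rcases (m1 y).1 hy with e | e
    · exact mem_sup_left (n1.conj_mem _ e b)
    · have := mul_mem (mul_mem (mem_sup_left (n1.conj_mem _ e b)) (inv_mem (mem_sup_right (mem_zpowers w))))
        (mem_sup_left (T := ⟪w⟫) (l1 hκ))
      convert this using 1
      group
  have bQ : b ∉ Q := fun e => k.wQ (by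
    have := nQ.conj_mem _ e ρ⁻¹
    rwa [← k.hb, show ρ⁻¹ * (ρ * w * ρ⁻¹) * ρ⁻¹⁻¹ = w by group] at this)
  have b1 : b ∉ (⟪c ^ (2 : ℤ)⟫ ⊔ P) ⊔ ⟪w⟫ := fun e => by
    rcases (m1 b).1 e with e | e
    · exact bQ (h.le1 e)
    · have h1 : w * b ∈ Q := by
        have := nQ.conj_mem _ (h.le1 e) w
        rwa [show w * (b * w) * w⁻¹ = w * b by group] at this
      exact k.wQ (k.hw ▸ nQ.conj_mem _ ((mul_mem_cancel_left h1).1 (h.le1 k.pr)) ρ)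
  have cd : #(((⟪c ^ (2 : ℤ)⟫ ⊔ P) ⊔ ⟪w⟫) ⊔ ⟪b⟫) = 2 * (2 * (16 * #⟪c ^ (4 : ℤ)⟫)) := by
    rw [H3.card_sup_zpowers Nat.prime_two bN b1 (by rw [pow_two]; exact mem_sup_left (l1 s2)),
      H3.card_sup_zpowers Nat.prime_two wN (fun e => k.wQ (h.le1 e)) (by rw [pow_two]; exact l1 s1), h.card1]
  have cn : #(⟪c ^ (4 : ℤ)⟫ ⊔ ⟪v⟫) ≤ 2 * #⟪c ^ (4 : ℤ)⟫ := by
    have vN : v ∈ N(⟪c ^ (4 : ℤ)⟫) := mem_nrm.2 fun y hy => by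
      rw [h.ab v (h.PQ k.vP) y (zpowers_le.2 (zpow_mem h.cQ 4) hy), mul_inv_cancel_right]; exact hy
    by_cases e : v ∈ ⟪c ^ (4 : ℤ)⟫
    · rw [sup_eq_left.2 (zpowers_le.2 e)]; omega
    · exact (H3.card_sup_zpowers Nat.prime_two vN e (by rw [pow_two, h.sqP v k.vP]; exact one_mem _)).le
  have tw : ∀ q ∈ ⟪c ^ (2 : ℤ)⟫ ⊔ P, w⁻¹ * q * w * q⁻¹ ∈ ⟪c ^ (4 : ℤ)⟫ ⊔ ⟪v⟫ := fun q hq => by
    obtain ⟨j, p, hp, rfl⟩ := (h.mem h.PQ 2).1 hq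
    exact lemM_inv (by rw [cmm h j (c2 w) hp]; exact k.tv p hp) cw
  have tb : ∀ q ∈ ⟪c ^ (2 : ℤ)⟫ ⊔ P, b⁻¹ * q * b * q⁻¹ ∈ ⟪c ^ (4 : ℤ)⟫ ⊔ ⟪v⟫ := fun q hq => by
    obtain ⟨j, p, hp, rfl⟩ := (h.mem h.PQ 2).1 hq
    exact lemM_inv (by rw [cmm h j (c2 b) hp]; exact k.tvb h p hp) cb
  have sq1 : ∀ q ∈ ⟪c ^ (2 : ℤ)⟫ ⊔ P, q * q ∈ ⟪c ^ (4 : ℤ)⟫ ⊔ ⟪v⟫ := fun q hq => by
    obtain ⟨j, p, hp, rfl⟩ := (h.mem h.PQ 2).1 hq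
    rw [h.sq _ hp]
    exact mem_sup_left (mem_zpowers_iff.2 ⟨j, by rw [← zpow_mul]; congr 1; ring⟩)
  have gen : ∀ x g : X, x * g ∈ ⟪c ^ (2 : ℤ)⟫ ⊔ P → g * g ∈ ⟪c ^ (4 : ℤ)⟫ ⊔ ⟪v⟫ →
      g⁻¹ * (x * g) * g * (x * g)⁻¹ ∈ ⟪c ^ (4 : ℤ)⟫ ⊔ ⟪v⟫ → x * x ∈ ⟪c ^ (4 : ℤ)⟫ ⊔ ⟪v⟫ := fun x g h1 h2 h3 => by
    have k1 := h.ab _ (h.le1 h1) _ (h.le1 (l1 h3))
    have e : x * x = (g⁻¹ * (x * g) * g * (x * g)⁻¹) * ((x * g) * (x * g)) * (g * g)⁻¹ := by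
      rw [← mul_assoc _ (x * g) (x * g), ← k1]
      simp only [mul_inv_rev, mul_assoc, inv_mul_cancel_left, mul_inv_cancel_left, mul_inv_cancel, mul_one]
    rw [e]; exact mul_mem (mul_mem h3 (sq1 _ h1)) (inv_mem h2)
  have := h.sr (((⟪c ^ (2 : ℤ)⟫ ⊔ P) ⊔ ⟪w⟫) ⊔ ⟪b⟫) (⟪c ^ (4 : ℤ)⟫ ⊔ ⟪v⟫) le_top
    (l1.trans (le_sup_left.trans le_sup_left)) fun x hx => by
      rcases (sup2 bN (mem_sup_left (l1 s2))).1 hx with e | e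
      · rcases (m1 _).1 e with e | e
        · exact sq1 _ e
        · exact gen x w e s1 (tw _ e)
      · rcases (m1 _).1 e with e | e
        · exact gen x b e s2 (tb _ e)
        · rw [mul_assoc] at e
          refine gen x (b * w) e ?_ ?_
          · have e1 : b * w * (b * w) = (w * b * w⁻¹ * b⁻¹)⁻¹ * ((b * b) * w) * w := by
              rw [← cw _ s2]
              simp only [mul_inv_rev, inv_inv, mul_assoc, inv_mul_cancel_left, mul_inv_cancel_left]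
            rw [e1, mul_assoc, mul_assoc (b * b)]
            exact mul_mem (inv_mem hκ) (mul_mem s2 s1)
          · have d1 := tw _ e
            have d2 := tb _ e
            have := cw _ d2
            convert mul_mem d2 d1 using 1
            generalize x * (b * w) = q at this ⊢
            calc _ = w⁻¹ * ((b⁻¹ * q * b * q⁻¹) * w) * (w⁻¹ * q * w * q⁻¹) := by group
              _ = _ := by rw [← this]; group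
  have : 0 < #⟪c ^ (4 : ℤ)⟫ := Nat.card_pos
  omega

end lemM_W

end Cfsg.Agent.H8.Tr
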